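import Cfsg.Agent.SolvBound.Core
import Cfsg.Agent.FGS.Basic

/-!
# Class numbers modulo the Fitting subgroup of soluble complex linear groups
-/

set_option autoImplicit false
set_option linter.style.haveILetI false
set_option linter.unusedSectionVars false

open scoped commutatorElement

namespace Cfsg.Agent.SolvBound

open Cfsg

instance fittingNormal (G : Type*) [Group G] : (fittingSubgroup G).Normal :=
  Subgroup.sSup_normal _ fun _ h => h.1

theorem le_fitting {G : Type*} [Group G] {N : Subgroup G} (hn : N.Normal) (hN : Group.IsNilpotent N) :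
    N ≤ fittingSubgroup G :=
  le_sSup ⟨hn, hN⟩

/-- A normal nilpotent subgroup with small quotient. -/
theorem kb_fitting_of_le {G : Type*} [Group G] [Finite G] {N : Subgroup G} [hn : N.Normal]
    (hN : Group.IsNilpotent N) {b : ℕ} (h : KB (G ⧸ N) b) : KB (G ⧸ fittingSubgroup G) b := by
  refine h.of_surjective (QuotientGroup.map N (fittingSubgroup G) (MonoidHom.id G) ?_) ?_
  · simpa using le_fitting hn hN
  · intro y
    obtain ⟨g, rfl⟩ := QuotientGroup.mk_surjective y
    exact ⟨(g : G ⧸ N), rfl⟩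

/-- A jointly injective family, modulo the Fitting subgroups. -/
theorem kb_fitting_pi {ι : Type*} [Fintype ι] {Y : ι → Type*} [∀ i, Group (Y i)]
    [∀ i, Finite (Y i)] (b : ι → ℕ) (hY : ∀ i, KB (Y i ⧸ fittingSubgroup (Y i)) (b i))
    {X : Type*} [Group X] [Finite X] (f : ∀ i, X →* Y i)
    (hinj : ∀ x, (∀ i, f i x = 1) → x = 1) : KB (X ⧸ fittingSubgroup X) (∏ i, b i) := by
  classical
  let N : Subgroup X := ⨅ i, (fittingSubgroup (Y i)).comap (f i)
  haveI : N.Normal := Subgroup.normal_iInf_normal fun i => (fittingNormal (Y i)).comap (f i)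
  have hmem : ∀ x : N, ∀ i, f i x ∈ fittingSubgroup (Y i) := fun x i =>
    (Subgroup.mem_iInf.mp x.2 i :)
  have hN : Group.IsNilpotent N := by
    haveI : ∀ i, Group.IsNilpotent (fittingSubgroup (Y i)) := fun i => FGS.fitting_isNilpotent
    let φ : N →* ∀ i, fittingSubgroup (Y i) :=
      MonoidHom.mk' (fun x i => ⟨f i x, hmem x i⟩) fun x y =>
        funext fun i => Subtype.ext (map_mul (f i) (x : X) y)
    exact Subgroup.isNilpotent_of_ker_le_center φ fun x hx => by
      have : x = 1 := Subtype.ext (hinj x fun i => congrArg Subtype.val (congrFun hx i))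
      rw [this]
      exact one_mem _
  refine kb_fitting_of_le hN ?_
  refine KB.pi_univ b hY (fun i => QuotientGroup.map N (fittingSubgroup (Y i)) (f i)
    (iInf_le _ i)) fun x hx => ?_
  obtain ⟨g, rfl⟩ := QuotientGroup.mk_surjective x
  exact (QuotientGroup.eq_one_iff g).mpr
    (Subgroup.mem_iInf.mpr fun i => (QuotientGroup.eq_one_iff (N := fittingSubgroup (Y i)) _).mp (hx i :))

section Eigen

variable {G V : Type} [Group G] [Finite G] [AddCommGroup V] [Module ℂ V]
variable (ρ : G →* Module.End ℂ V) (A : Subgroup G)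

/-- The common eigenspace. -/
def wt (χ : A →* ℂˣ) : Submodule ℂ V where
  carrier := {v | ∀ a : A, ρ a v = (χ a : ℂ) • v}
  zero_mem' a := by simp
  add_mem' {u v} hu hv a := by rw [map_add, hu a, hv a, smul_add]
  smul_mem' c v hv a := by rw [map_smul, hv a, smul_comm]

variable {ρ A}

theorem sum_char_eq_zero {B : Type*} [Group B] [Fintype B] {f : B →* ℂˣ} {b : B} (hb : f b ≠ 1) :
    ∑ a, (f a : ℂ) = 0 := by
  have h : (f b : ℂ) * ∑ a, (f a : ℂ) = ∑ a, (f a : ℂ) := by
    rw [Finset.mul_sum]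
    exact Fintype.sum_equiv (Equiv.mulLeft b) _ _ fun a => by simp
  by_contra hne
  exact hb (Units.ext (mul_eq_right₀ hne |>.mp h))

/-- The eigenspaces give a decomposition. -/
theorem wt_bijective (hab : ∀ a b : A, a * b = b * a) [Fintype (A →* ℂˣ)] :
    Function.Bijective (fun x : ∀ χ : A →* ℂˣ, wt ρ A χ => ∑ χ, (x χ : V)) := by
  classical
  letI : CommGroup A := { (inferInstance : Group A) with mul_comm := hab }
  haveI : Fintype A := Fintype.ofFinite A
  let P : (A →* ℂˣ) → V → V := fun χ v => ∑ a : A, ((χ a)⁻¹ : ℂˣ).val • ρ a v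
  have hP : ∀ χ v, P χ v ∈ wt ρ A χ := by
    intro χ v b
    simp only [P, map_sum, map_smul, Finset.smul_sum, smul_smul]
    refine Fintype.sum_equiv (Equiv.mulLeft b) _ _ fun a => ?_
    simp only [Equiv.coe_mulLeft, map_mul, Subgroup.coe_mul, Module.End.mul_apply, mul_inv_rev,
      Units.val_mul]
    rw [mul_comm ((χ a)⁻¹ : ℂˣ).val, ← mul_assoc, ← Units.val_mul, mul_inv_cancel, Units.val_one,
      one_mul]
  refine ⟨fun x y h => funext fun ψ => Subtype.ext ?_, fun v => ?_⟩
  · have key : ∀ z : ∀ χ : A →* ℂˣ, wt ρ A χ,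
        P ψ (∑ χ, (z χ : V)) = (Fintype.card A : ℂ) • (z ψ : V) := by
      intro z
      simp only [P, map_sum, Finset.smul_sum]
      rw [Finset.sum_comm]
      have h1 : ∀ χ, ∑ a : A, ((ψ a)⁻¹ : ℂˣ).val • ρ a (z χ : V) =
          (∑ a : A, (((ψ⁻¹ * χ) a : ℂˣ) : ℂ)) • (z χ : V) := fun χ => by
        rw [Finset.sum_smul]
        exact Finset.sum_congr rfl fun a _ => by
          rw [(z χ).2 a, smul_smul, MonoidHom.mul_apply, MonoidHom.inv_apply, Units.val_mul]
      rw [Finset.sum_congr rfl fun χ _ => h1 χ, Finset.sum_eq_single ψ]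
      · simp [← Finset.card_univ]
      · intro χ _ hne
        obtain ⟨b, hb⟩ : ∃ b, (ψ⁻¹ * χ) b ≠ 1 := by
          by_contra hc
          push Not at hc
          exact hne (MonoidHom.ext fun a => (inv_mul_eq_one.mp
            (by simpa [MonoidHom.mul_apply, MonoidHom.inv_apply] using hc a)).symm)
        rw [sum_char_eq_zero hb, zero_smul]
      · exact fun h => absurd (Finset.mem_univ ψ) h
    have h0 : ((Fintype.card A : ℂ)) ≠ 0 := Nat.cast_ne_zero.mpr Fintype.card_ne_zero
    exact smul_right_injective V h0 ((key x).symm.trans ((congrArg (P ψ) h).trans (key y)))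
  · have hne : ((Fintype.card (A →* ℂˣ) : ℂ)) ≠ 0 := Nat.cast_ne_zero.mpr Fintype.card_ne_zero
    refine ⟨fun χ => ⟨(Fintype.card (A →* ℂˣ) : ℂ)⁻¹ • P χ v,
      Submodule.smul_mem _ _ (hP χ v)⟩, ?_⟩
    show ∑ χ, (Fintype.card (A →* ℂˣ) : ℂ)⁻¹ • P χ v = v
    rw [← Finset.smul_sum, inv_smul_eq_iff₀ hne]
    simp only [P]
    rw [Finset.sum_comm, Finset.sum_eq_single 1]
    · simp [Nat.cast_smul_eq_nsmul]
    · intro a _ ha
      rw [← Finset.sum_smul]
      haveI : HasEnoughRootsOfUnity ℂ (Monoid.exponent A) := by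
        haveI : NeZero (Monoid.exponent A) := ⟨Monoid.exponent_ne_zero_of_finite⟩
        infer_instance
      obtain ⟨φ, hφ⟩ := CommGroup.exists_apply_ne_one_of_hasEnoughRootsOfUnity A ℂ ha
      let ev : (A →* ℂˣ) →* ℂˣ :=
        { toFun := fun χ => (χ a)⁻¹
          map_one' := by simp
          map_mul' := fun χ χ' => by simp [mul_comm] }
      rw [show (∑ χ : A →* ℂˣ, ((χ a)⁻¹ : ℂˣ).val) = 0 from
        sum_char_eq_zero (f := ev) (b := φ) (inv_ne_one.mpr hφ), zero_smul]
    · exact fun h => absurd (Finset.mem_univ 1) h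

end Eigen

/-- **Soluble complex linear groups.** -/
theorem kb_fitting_complex : ∀ r, ∀ (G V : Type) [Group G] [Finite G] [AddCommGroup V] [Module ℂ V]
    [FiniteDimensional ℂ V] (ρ : G →* Module.End ℂ V), Function.Injective ρ →
    Group.IsSolvable G → Module.finrank ℂ V = r → 1 ≤ r →
    KB (G ⧸ fittingSubgroup G) (3 ^ (r - 1)) := by
  intro r
  induction r using Nat.strong_induction_on with
  | _ r ih =>
  intro G V _ _ _ _ _ ρ hρ hsol hr hr1
  classical
  haveI := hsol
  haveI : Nontrivial V := Module.nontrivial_of_finrank_pos (R := ℂ) (by omega)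
  let IsScalar : G → Prop := fun g => ∃ c : ℂ, ρ g = c • 1
  by_cases hA : ∃ A : Subgroup G, A.Normal ∧ (∀ a b : A, a * b = b * a) ∧ ∃ a ∈ A, ¬ IsScalar a
  · -- a system of imprimitivity
    obtain ⟨A, hAn, hab, a₀, ha₀, hns⟩ := hA
    letI : CommGroup A := { (inferInstance : Group A) with mul_comm := hab }
    haveI : Finite (A →* ℂˣ) := Nat.finite_of_card_ne_zero (by
      haveI : NeZero (Monoid.exponent A) := ⟨Monoid.exponent_ne_zero_of_finite⟩
      rw [CommGroup.card_monoidHom_of_hasEnoughRootsOfUnity A ℂ]; exact Nat.card_pos.ne')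
    letI : Fintype (A →* ℂˣ) := Fintype.ofFinite _
    have hbij := wt_bijective (ρ := ρ) hab
    let Λ := {χ : A →* ℂˣ // wt ρ A χ ≠ ⊥}
    let cj : G → A →* A := fun g =>
      { toFun := fun a => ⟨g * a * g⁻¹, hAn.conj_mem a a.2 g⟩
        map_one' := Subtype.ext (by simp)
        map_mul' := fun a b => Subtype.ext (by simp [mul_assoc]) }
    have hcj : ∀ g h a, cj g (cj h a) = cj (g * h) a := fun g h a =>
      Subtype.ext (by simp [cj, mul_assoc])
    have hmove : ∀ g χ, ∀ v ∈ wt ρ A χ, ρ g v ∈ wt ρ A (χ.comp (cj g⁻¹)) := by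
      intro g χ v hv a
      have : (a : G) * g = g * (cj g⁻¹ a : A) := by simp [cj, mul_assoc]
      rw [← Module.End.mul_apply, ← map_mul, this, map_mul, Module.End.mul_apply, hv, map_smul]
      rfl
    have hne : ∀ g χ, wt ρ A χ ≠ ⊥ → wt ρ A (χ.comp (cj g⁻¹)) ≠ ⊥ := by
      intro g χ hχ h
      refine hχ ((Submodule.eq_bot_iff _).mpr fun v hv => ?_)
      have h1 : ρ g v = 0 := (Submodule.eq_bot_iff _).mp h _ (hmove g χ v hv)
      have h2 : ρ g⁻¹ (ρ g v) = v := by
        rw [← Module.End.mul_apply, ← map_mul, inv_mul_cancel, map_one]; rfl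
      rw [← h2, h1, map_zero]
    have hcomp : ∀ g h (χ : A →* ℂˣ), (χ.comp (cj h⁻¹)).comp (cj g⁻¹) = χ.comp (cj (g * h)⁻¹) :=
      fun g h χ => MonoidHom.ext fun a => by
        simp only [MonoidHom.comp_apply, hcj, mul_inv_rev]
    have hone : ∀ χ : A →* ℂˣ, χ.comp (cj 1) = χ := fun χ => MonoidHom.ext fun a => by
      simp [cj]
    let π : G →* Equiv.Perm Λ :=
      { toFun := fun g =>
          { toFun := fun χ => ⟨χ.1.comp (cj g⁻¹), hne g _ χ.2⟩
            invFun := fun χ => ⟨χ.1.comp (cj g⁻¹⁻¹), hne g⁻¹ _ χ.2⟩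
            left_inv := fun χ => Subtype.ext (by
              show (χ.1.comp (cj g⁻¹)).comp (cj g⁻¹⁻¹) = χ.1
              rw [hcomp, inv_mul_cancel, inv_one, hone])
            right_inv := fun χ => Subtype.ext (by
              show (χ.1.comp (cj g⁻¹⁻¹)).comp (cj g⁻¹) = χ.1
              rw [hcomp, mul_inv_cancel, inv_one, hone]) }
        map_one' := Equiv.ext fun χ => Subtype.ext (by
          show χ.1.comp (cj 1⁻¹) = χ.1
          rw [inv_one, hone])
        map_mul' := fun g h => Equiv.ext fun χ => Subtype.ext (hcomp g h χ.1).symm }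
    let B := π.ker
    haveI : Fintype Λ := Fintype.ofFinite Λ
    -- dimensions
    have hsum : ∑ χ : A →* ℂˣ, Module.finrank ℂ (wt ρ A χ) = r := by
      rw [← Module.finrank_pi_fintype ℂ, ← hr]
      exact (LinearEquiv.ofBijective
        ({ toFun := fun x => ∑ χ, (x χ : V)
           map_add' := fun x y => by simp [Finset.sum_add_distrib]
           map_smul' := fun c x => by simp [Finset.smul_sum] } :
          (∀ χ : A →* ℂˣ, wt ρ A χ) →ₗ[ℂ] V) hbij).finrank_eq
    have hsumΛ : ∑ χ : Λ, Module.finrank ℂ (wt ρ A χ.1) = r := by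
      rw [← hsum, ← Finset.sum_subtype (Finset.univ.filter fun χ => wt ρ A χ ≠ ⊥) (by simp)
        (fun χ => Module.finrank ℂ (wt ρ A χ))]
      refine Finset.sum_subset (Finset.filter_subset _ _) fun χ _ h => ?_
      rw [Finset.mem_filter, not_and, not_not] at h
      rw [h (Finset.mem_univ _), finrank_bot]
    have hpos : ∀ χ : Λ, 1 ≤ Module.finrank ℂ (wt ρ A χ.1) := fun χ =>
      Submodule.one_le_finrank_iff.mpr χ.2
    have ht : 2 ≤ Fintype.card Λ := by
      by_contra hlt
      haveI : Subsingleton Λ := Fintype.card_le_one_iff_subsingleton.mp (by omega)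
      rcases isEmpty_or_nonempty Λ with hE | ⟨⟨χ₀⟩⟩
      · simp at hsumΛ
        omega
      refine hns ⟨(χ₀.1 ⟨a₀, ha₀⟩ : ℂ), LinearMap.ext fun v => ?_⟩
      obtain ⟨x, rfl⟩ := hbij.2 v
      show ρ a₀ (∑ χ, (x χ : V)) = (χ₀.1 ⟨a₀, ha₀⟩ : ℂ) • ∑ χ, (x χ : V)
      rw [map_sum, Finset.smul_sum]
      refine Finset.sum_congr rfl fun χ _ => ?_
      by_cases hχ : wt ρ A χ = ⊥
      · have h0 : (x χ : V) = 0 := (Submodule.eq_bot_iff _).mp hχ _ (x χ).2
        rw [h0, map_zero, smul_zero]
      · have he : χ = χ₀.1 := congrArg Subtype.val (Subsingleton.elim (⟨χ, hχ⟩ : Λ) χ₀)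
        have := (x χ).2 ⟨a₀, ha₀⟩
        rw [← he]
        exact this
    have hlt : ∀ χ : Λ, Module.finrank ℂ (wt ρ A χ.1) < r := by
      intro χ
      obtain ⟨χ', hne'⟩ := Fintype.exists_ne_of_one_lt_card ht χ
      rw [← hsumΛ]
      exact Finset.single_lt_sum (f := fun χ : Λ => Module.finrank ℂ (wt ρ A χ.1)) hne'
        (Finset.mem_univ χ) (Finset.mem_univ χ') (hpos χ') fun _ _ _ => Nat.zero_le _
    have hinv : ∀ (χ : Λ) (g : B), ∀ v ∈ wt ρ A χ.1, ρ g v ∈ wt ρ A χ.1 := by
      intro χ g v hv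
      have h := hmove g χ.1 v hv
      have hfix : χ.1.comp (cj (g : G)⁻¹) = χ.1 :=
        congrArg Subtype.val (DFunLike.congr_fun (MonoidHom.mem_ker.mp g.2) χ)
      rwa [hfix] at h
    let f : ∀ χ : Λ, B →* (Module.End ℂ (wt ρ A χ.1))ˣ := fun χ =>
      MonoidHom.toHomUnits
        { toFun := fun g => (ρ g).restrict (hinv χ g)
          map_one' := LinearMap.ext fun v => Subtype.ext (by simp)
          map_mul' := fun g h => LinearMap.ext fun v => Subtype.ext (by simp) }
    haveI : ∀ χ : Λ, Finite (f χ).range := fun χ =>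
      Finite.of_surjective (f χ).rangeRestrict (f χ).rangeRestrict_surjective
    have hY : ∀ χ : Λ, KB ((f χ).range ⧸ fittingSubgroup (f χ).range)
        (3 ^ (Module.finrank ℂ (wt ρ A χ.1) - 1)) := fun χ =>
      ih _ (hlt χ) (f χ).range (wt ρ A χ.1) ((Units.coeHom _).comp (f χ).range.subtype)
        (Units.val_injective.comp Subtype.val_injective) (solvable_range inferInstance _) rfl
        (hpos χ)
    have hinjB : ∀ g : B, (∀ χ, (f χ).rangeRestrict g = 1) → g = 1 := by
      intro g hg
      refine Subtype.ext (hρ ?_)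
      rw [OneMemClass.coe_one, map_one]
      refine LinearMap.ext fun v => ?_
      obtain ⟨x, rfl⟩ := hbij.2 v
      show ρ g (∑ χ, (x χ : V)) = ∑ χ, (x χ : V)
      rw [map_sum]
      refine Finset.sum_congr rfl fun χ _ => ?_
      by_cases hχ : wt ρ A χ = ⊥
      · have h0 : (x χ : V) = 0 := (Submodule.eq_bot_iff _).mp hχ _ (x χ).2
        rw [h0, map_zero]
      · have := congrArg (fun u : (f ⟨χ, hχ⟩).range =>
          ((((u : (Module.End ℂ (wt ρ A χ))ˣ) : Module.End ℂ (wt ρ A χ)) (x χ) : wt ρ A χ) : V))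
          (hg ⟨χ, hχ⟩)
        simpa [f] using this
    have hB := kb_fitting_pi _ hY (fun χ => (f χ).rangeRestrict) hinjB
    let N0 : Subgroup G := (fittingSubgroup B).map B.subtype
    haveI : (fittingSubgroup B).Characteristic := by
      refine Subgroup.characteristic_iff_map_le.mpr fun φ => ?_
      haveI : Group.IsNilpotent (fittingSubgroup B) := FGS.fitting_isNilpotent
      refine le_fitting ((fittingNormal B).map _ φ.surjective) ?_
      exact Group.nilpotent_of_surjective
        (φ.toMonoidHom.subgroupMap (fittingSubgroup B))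
        (MonoidHom.subgroupMap_surjective _ _)
    haveI hN0n : N0.Normal := ConjAct.normal_of_characteristic_of_normal
    have hN0 : Group.IsNilpotent N0 := by
      haveI : Group.IsNilpotent (fittingSubgroup B) := FGS.fitting_isNilpotent
      exact Group.nilpotent_of_surjective (B.subtype.subgroupMap (fittingSubgroup B))
        (MonoidHom.subgroupMap_surjective _ _)
    refine kb_fitting_of_le hN0 ?_
    have hN0B : N0 ≤ π.ker := by rintro _ ⟨b, -, rfl⟩; exact b.2
    let πq : G ⧸ N0 →* Equiv.Perm Λ := QuotientGroup.lift N0 π hN0B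
    refine (KB.ext πq (a := ∏ χ : Λ, 3 ^ (Module.finrank ℂ (wt ρ A χ.1) - 1))
      (b := 3 ^ (Fintype.card Λ - 1)) ?_ ?_).mono ?_
    · let j : B ⧸ fittingSubgroup B →* πq.ker :=
        (QuotientGroup.map (fittingSubgroup B) N0 B.subtype
          (Subgroup.le_comap_map _ _)).codRestrict πq.ker fun x => by
          obtain ⟨b, rfl⟩ := QuotientGroup.mk_surjective x
          exact MonoidHom.mem_ker.mpr (MonoidHom.mem_ker.mp b.2 :)
      refine hB.of_surjective j fun y => ?_
      obtain ⟨g, hg⟩ := QuotientGroup.mk_surjective y.1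
      have hgB : g ∈ B := by
        have := MonoidHom.mem_ker.mp y.2
        rw [← hg] at this
        exact MonoidHom.mem_ker.mpr (this :)
      exact ⟨((⟨g, hgB⟩ : B) : B ⧸ fittingSubgroup B), Subtype.ext hg⟩
    · refine KB.of_card_le ?_
      haveI : Nonempty Λ := Fintype.card_pos_iff.mp (by omega)
      rw [← Nat.card_eq_fintype_card]
      exact solvable_perm_card_le _ (solvable_range inferInstance _)
    · rw [Finset.prod_pow_eq_pow_sum, ← pow_add]
      refine Nat.pow_le_pow_right (by norm_num) ?_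
      have h1 : ∑ χ : Λ, (Module.finrank ℂ (wt ρ A χ.1) - 1) + Fintype.card Λ = r := by
        rw [← hsumΛ, ← Finset.card_univ, Finset.card_eq_sum_ones, ← Finset.sum_add_distrib]
        exact Finset.sum_congr rfl fun χ _ => Nat.sub_add_cancel (hpos χ)
      omega
  -- every abelian normal subgroup is scalar
  push Not at hA
  let U : Subgroup G :=
    { carrier := {g | IsScalar g}
      one_mem' := ⟨1, by rw [map_one, one_smul]⟩
      mul_mem' := fun {g h} ⟨c, hc⟩ ⟨d, hd⟩ =>
        ⟨c * d, by rw [map_mul, hc, hd, smul_mul_assoc, one_mul, smul_smul]⟩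
      inv_mem' := fun {g} ⟨c, hc⟩ => ⟨c ^ (orderOf g - 1), by
        rw [inv_eq_of_mul_eq_one_right (b := g ^ (orderOf g - 1)) (by
          rw [← pow_succ', Nat.sub_add_cancel (orderOf_pos g), pow_orderOf_eq_one]),
          map_pow, hc, smul_pow, one_pow]⟩ }
  have hcomm : ∀ (g : G), ∀ u ∈ U, g * u = u * g := fun g u ⟨c, hc⟩ => hρ (by
    rw [map_mul, map_mul, hc, mul_smul_comm, mul_one, smul_mul_assoc, one_mul])
  let sys : Sys G :=
    { lin := ⊤
      U := U
      lin_normal := inferInstance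
      U_normal := ⟨fun u hu g => by rwa [hcomm g u hu, mul_inv_cancel_right]⟩
      U_le := le_top
      central := fun g _ u hu => hcomm g u hu
      max_abelian := fun N hN hab _ x hx => by
        by_contra hxU
        exact hA N hN (fun a b => Subtype.ext (hab a a.2 b b.2)) x hx |> hxU
      cyclic := by
        have hsc : ∀ u : U, ∃ c : ℂ, ρ u = c • 1 := fun u => u.2
        choose c hc using hsc
        have hinjc : Function.Injective fun a : ℂ => a • (1 : Module.End ℂ V) :=
          smul_left_injective ℂ one_ne_zero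
        let φ : U →* ℂ :=
          { toFun := c
            map_one' := hinjc (by
              show c 1 • (1 : Module.End ℂ V) = (1 : ℂ) • (1 : Module.End ℂ V)
              rw [← hc, OneMemClass.coe_one, map_one, one_smul])
            map_mul' := fun u v => hinjc (by
              show c (u * v) • (1 : Module.End ℂ V) = (c u * c v) • (1 : Module.End ℂ V)
              rw [← hc, Subgroup.coe_mul, map_mul, hc, hc, smul_mul_assoc, one_mul, smul_smul]) }
        exact isCyclic_of_injective_ringHom φ fun u v h => Subtype.ext (hρ (by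
          rw [hc, hc]; exact congrArg (· • (1 : Module.End ℂ V)) h)) }
  obtain ⟨D, hD⟩ := sys.exists_BD hsol
  have hlin : D.lin = ⊤ := congrArg Sys.lin hD
  have hDU : D.U = U := congrArg Sys.U hD
  haveI := D.cyclic
  have hW : Nat.card D.W ≤ r ^ 2 := hr ▸ D.card_W_le ρ (fun x _ y _ => map_mul ρ x y)
    (fun x _ h => by
      have h1 : ρ x * ρ x⁻¹ = 1 := by rw [← map_mul, mul_inv_cancel, map_one]
      rw [h, zero_mul] at h1
      exact zero_ne_one h1)
    (fun u => (hDU ▸ u.2 : (u : G) ∈ U)) fun u _ h => hρ (h.trans ρ.map_one.symm)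
  obtain ⟨e, he, he1, hkb⟩ := core _ D.W D.U D.pairing D.n D.hn D.pow_eq_one rfl D.linRange
    (solvable_range inferInstance _) D.linRange_crm
    (by rintro _ ⟨⟨g, hg⟩, rfl⟩ x y; exact D.pairing_act hg x y)
  have her : e ≤ r := by
    rw [he] at hW
    exact (Nat.pow_le_pow_iff_left two_ne_zero).mp hW
  haveI := D.normal
  have hBnil : Group.IsNilpotent D.B := by
    refine Subgroup.isNilpotent_of_ker_le_center (QuotientGroup.mk' D.UB) ?_
    intro u hu
    rw [QuotientGroup.ker_mk'] at hu
    refine Subgroup.mem_center_iff.mpr fun b => Subtype.ext ?_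
    exact D.central b (D.B_le_lin b.2) u hu
  refine kb_fitting_of_le hBnil ((hkb.comap ?_ ?_).mono (Nat.pow_le_pow_right (by norm_num) (by omega)))
  · refine QuotientGroup.lift D.B (D.act.codRestrict D.linRange fun g =>
      ⟨⟨g, hlin ▸ Subgroup.mem_top g⟩, rfl⟩) fun b hb => ?_
    refine MonoidHom.mem_ker.mpr (Subtype.ext ?_)
    refine MulEquiv.ext fun w => ?_
    obtain ⟨x, rfl⟩ := QuotientGroup.mk_surjective w
    show ((D.conjB b x : D.B) : D.W) = (x : D.W)
    rw [QuotientGroup.eq]
    show ((D.conjB b x)⁻¹ * x : D.B).1 ∈ D.U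
    rw [Subgroup.coe_mul, Subgroup.coe_inv, D.conjB_val]
    have := D.comm_mem hb (inv_mem x.2)
    convert this using 1
    rw [commutatorElement_def]
    group
  · rw [injective_iff_map_eq_one]
    intro q hq
    obtain ⟨g, rfl⟩ := QuotientGroup.mk_surjective q
    exact (QuotientGroup.eq_one_iff g).mpr
      (D.mem_B_of_act (hlin ▸ Subgroup.mem_top g) (congrArg Subtype.val hq :))

end Cfsg.Agent.SolvBound
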