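import Cfsg.Agent.SolvBound.PSolvable
import Cfsg.Agent.BlockCover.Solvable
import Cfsg.Agent.RelMcKay.Good
import Cfsg.Agent.S4436

/-!
# The number of characters in a block of a soluble group
-/

set_option autoImplicit false
set_option linter.style.haveILetI false
set_option linter.unusedSectionVars false

namespace Cfsg.Agent.SolvBound

open Cfsg

universe u

/-- The characters over an invariant character of a normal subgroup number at most the classes of
the quotient. -/
theorem card_over_le_kc {G : Type u} [Group G] [Fintype G] (N : Subgroup G) [hN : N.Normal]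
    [Fintype N] (θ : IrrCharacter N) (hinv : ∀ x : G, Brauer.conjIrr N x θ = θ) :
    Set.ncard {χ : IrrCharacter G | classInner (fun n : N => (χ : G → ℂ) n) (θ : N → ℂ) ≠ 0} ≤
      kc (G ⧸ N) := by
  classical
  have hTn : (⊤ : Subgroup G) ≤ Subgroup.normalizer (N : Set G) := by
    rw [Subgroup.normalizer_eq_top]
  have hfix : ∀ g ∈ (⊤ : Subgroup G), RelMcKay.FixBy g θ := by
    intro g _ k k' hk
    have h := congrArg (fun φ : IrrCharacter N => (φ : N → ℂ) k) (hinv g)
    refine Eq.trans ?_ h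
    refine Eq.trans ?_ (CharInd.conjChar_apply N g (θ : N → ℂ) k).symm
    exact congrArg _ (Subtype.ext hk)
  have hcount := RelMcKay.card_over_eq (M := N) (T := ⊤) (H := ⊤) le_top hTn le_rfl hfix
    (le_sup_right) (C := N) (fun _ _ => Iff.rfl)
  have h1 : Set.ncard {χ : IrrCharacter G | classInner (fun n : N => (χ : G → ℂ) n) (θ : N → ℂ) ≠ 0} ≤
      Nat.card (RelMcKay.goodClasses N (⊤ : Subgroup G) (RelMcKay.IsGood N ⊤ θ)) := by
    rw [← hcount, ← Nat.card_coe_set_eq]
    refine Nat.card_le_card_of_injective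
      (fun χ => ⟨Brauer.irrComp (Subgroup.topEquiv : (⊤ : Subgroup G) ≃* G) χ.1, ?_⟩)
      fun χ χ' e => Subtype.ext ((Brauer.irrComp _).injective (congrArg Subtype.val e))
    intro h0
    refine χ.2 ?_
    have := GlauberCorr.classInner_comp_eq_homMult (Subgroup.inclusion (le_top : N ≤ ⊤))
      (Brauer.irrComp (Subgroup.topEquiv : (⊤ : Subgroup G) ≃* G) χ.1) θ
    refine Eq.trans ?_ ((congrArg (fun m : ℕ => (m : ℂ)) h0).trans Nat.cast_zero)
    exact this
  refine h1.trans ?_
  let F : ConjClasses (G ⧸ N) → Set G := fun c => {z | ConjClasses.mk (z : G ⧸ N) = c}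
  have hsub : RelMcKay.goodClasses N (⊤ : Subgroup G) (RelMcKay.IsGood N ⊤ θ) ⊆ Set.range F := by
    rintro _ ⟨y, -, -, rfl⟩
    refine ⟨ConjClasses.mk (y : G ⧸ N), Set.ext fun z => ?_⟩
    show ConjClasses.mk (z : G ⧸ N) = ConjClasses.mk (y : G ⧸ N) ↔ _
    rw [eq_comm, ConjClasses.mk_eq_mk_iff_isConj, isConj_iff]
    constructor
    · rintro ⟨q, hq⟩
      obtain ⟨x, rfl⟩ := QuotientGroup.mk_surjective q
      refine ⟨Subgroup.mem_top z, x, Subgroup.mem_top x, ?_⟩
      rw [← QuotientGroup.eq_one_iff, QuotientGroup.mk_mul, QuotientGroup.mk_mul,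
        QuotientGroup.mk_mul, QuotientGroup.mk_inv, QuotientGroup.mk_inv, hq, mul_inv_cancel]
    · rintro ⟨-, x, -, hx⟩
      refine ⟨(x : G ⧸ N), ?_⟩
      rw [← QuotientGroup.eq_one_iff, QuotientGroup.mk_mul, QuotientGroup.mk_mul,
        QuotientGroup.mk_mul, QuotientGroup.mk_inv, QuotientGroup.mk_inv, mul_inv_eq_one] at hx
      exact hx
  rw [Nat.card_coe_set_eq]
  refine (Set.ncard_le_ncard hsub (Set.finite_range F)).trans ?_
  rw [← Set.image_univ, kc, ← Set.ncard_univ]
  exact Set.ncard_image_le (Set.toFinite _)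

/-- **Blocks of soluble groups.** -/
theorem block_count {p : ℕ} [hp : Fact p.Prime] {M : Ideal AlgInt} (hM : IsPModular p M) :
    ∀ n, ∀ (G : Type u) [Group G] [Fintype G], Nat.card G = n → Group.IsSolvable G →
      ∀ B : Set (IrrCharacter G), IsPBlock M B → 0 < blockDefect p B →
        Set.ncard B ≤ 3 ^ (blockDefect p B - 1) * p ^ blockDefect p B := by
  intro n
  induction n using Nat.strong_induction_on with
  | _ n ih =>
  intro G _ _ hn hsol B hB hd
  classical
  haveI := hsol
  haveI : M.IsPrime := hM.2.1.isPrime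
  have hps : IsPSolvable p G := PSolv.isPSolvable_of_isSolvable hsol
  let N := pPrimeCore p G
  haveI hNn : N.Normal := Subgroup.sSup_normal _ fun _ h => h.1
  letI := Fintype.ofFinite N
  have hpN : ¬ p ∣ Nat.card N := Cores.not_dvd_card_pPrimeCore
  obtain ⟨χ₀, hχ₀⟩ := Block.pBlock_nonempty hB
  obtain ⟨θ, k, hk, hθ⟩ := Char.exists_irr_constituent
    (CharInd.isCharacter_res N (Char.isCharacter_of_irr χ₀.2))
    (fun h => Char.irr_one_ne_zero χ₀.2 (congrFun h 1))
  have hover : classInner (fun n : N => (χ₀ : G → ℂ) n) (θ : N → ℂ) ≠ 0 := by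
    rw [hθ]; exact Nat.cast_ne_zero.2 hk.ne'
  have hb : IsPBlock M ({θ} : Set (IrrCharacter N)) := by
    rw [← BlockCover.blockOf_eq_singleton hM hpN θ]; exact ⟨θ, rfl⟩
  by_cases hinv : ∀ x : G, Brauer.conjIrr N x θ = θ
  · obtain ⟨B₀, hB₀, hiff, hcard⟩ := BlockCover.block_over_pPrimeCore N hM hps rfl θ hinv
    obtain rfl := Block.pBlock_eq_of_mem hB hB₀ hχ₀ ((hiff χ₀).2 hover)
    obtain ⟨P, hP⟩ := Block.exists_isDefectGroup (p := p) (M := M) hB
    have hdb : (Nat.card G).factorization p = blockDefect p B :=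
      Nat.pow_right_injective hp.out.two_le
        ((hcard P hP).symm.trans (Block.card_isDefectGroup hM hB hP))
    have hset : B = {χ : IrrCharacter G | classInner (fun n : N => (χ : G → ℂ) n) (θ : N → ℂ) ≠ 0} :=
      Set.ext hiff
    have hle : Set.ncard B ≤ kc (G ⧸ N) :=
      (congrArg Set.ncard hset).trans_le (card_over_le_kc N θ hinv)
    let e : Shrink.{0} (G ⧸ N) ≃* G ⧸ N := Shrink.mulEquiv
    have hsolQ : Group.IsSolvable (Shrink.{0} (G ⧸ N)) :=
      Group.isSolvable_of_surjective (f := e.symm.toMonoidHom.comp (QuotientGroup.mk' N))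
        (e.symm.surjective.comp (QuotientGroup.mk'_surjective N))
    have hO : pPrimeCore p (Shrink.{0} (G ⧸ N)) = ⊥ := by
      rw [← Cores.map_pPrimeCore_equiv e.symm, Cores.pPrimeCore_quotient_pPrimeCore_eq_bot,
        Subgroup.map_bot]
    have hfac : (Nat.card (Shrink.{0} (G ⧸ N))).factorization p = blockDefect p B := by
      rw [← hdb, Nat.card_congr e.toEquiv, Subgroup.card_eq_card_quotient_mul_card_subgroup N,
        Nat.factorization_mul Nat.card_pos.ne' Nat.card_pos.ne', Finsupp.add_apply,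
        Nat.factorization_eq_zero_of_not_dvd hpN, add_zero]
    exact hle.trans ((kc_congr e).symm.trans_le
      (kc_le_of_pPrimeCore_eq_bot _ _ rfl hsolQ hO _ hfac hd))
  · let T : Subgroup G :=
      { carrier := {g | Brauer.conjIrr N g θ = θ}
        one_mem' := Brauer.conjIrr_one N θ
        mul_mem' := fun {a b} ha hb => by
          show Brauer.conjIrr N (a * b) θ = θ
          rw [Brauer.conjIrr_mul, show Brauer.conjIrr N a θ = θ from ha]
          exact hb
        inv_mem' := fun {a} ha => by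
          show Brauer.conjIrr N a⁻¹ θ = θ
          conv_lhs => rw [← show Brauer.conjIrr N a θ = θ from ha]
          rw [← Brauer.conjIrr_mul, mul_inv_cancel, Brauer.conjIrr_one] }
    letI := Fintype.ofFinite T
    have hNT : N ≤ T := fun a ha => Subtype.ext (funext fun m => by
      refine (CharInd.conjChar_apply N a (θ : N → ℂ) m).trans ?_
      exact (Char.irr_isClassFunction θ.2) m ⟨a, ha⟩)
    have hmem : ∀ g : G, g ∈ T ↔ ∀ φ ∈ ({θ} : Set (IrrCharacter N)),
        Brauer.conjIrr N g φ ∈ ({θ} : Set (IrrCharacter N)) := fun g => by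
      simp only [Set.mem_singleton_iff, forall_eq]
      exact Iff.rfl
    obtain ⟨B', hB', hcov, hind⟩ := BlockCover.exists_inducing_block hNT hmem hM hb hB
      ⟨χ₀, hχ₀, θ, rfl, hover⟩
    obtain ⟨B₀, hind₀, -, hiff⟩ := BlockCover.induced_block hNT hmem hM hb hB' hcov
    rw [← Block.isInducedBlock_unique hind hind₀] at hiff
    have hT : ∀ g : G, g ∈ T ↔ ∀ φ ∈ ({θ} : Set (IrrCharacter N)), ∀ φ' : IrrCharacter N,
        (∀ n : N, (φ' : N → ℂ) n = (φ : N → ℂ) ⟨g * n * g⁻¹, hNn.conj_mem n n.2 g⟩) →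
          φ' ∈ ({θ} : Set (IrrCharacter N)) := fun g => by
      rw [hmem g]
      refine ⟨fun h φ hφ φ' hφ' => ?_, fun h φ hφ => h φ hφ _ fun n => ?_⟩
      · rw [show φ' = Brauer.conjIrr N g φ from Subtype.ext (funext fun n => by
          rw [hφ' n]; exact (CharInd.conjChar_apply N g (φ : N → ℂ) n).symm)]
        exact h φ hφ
      · exact CharInd.conjChar_apply N g (φ : N → ℂ) n
    obtain ⟨hdef, -⟩ := S4436.result p M hM N _ hb T hT hNT B' hB' hcov B hind
    obtain ⟨D, hD⟩ := Block.exists_isDefectGroup (p := p) (M := M) hB'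
    have hdd : blockDefect p B = blockDefect p B' := Nat.pow_right_injective hp.out.two_le (by
      show p ^ blockDefect p B = p ^ blockDefect p B'
      rw [← Block.card_isDefectGroup hM hB (hdef D hD), ← Block.card_isDefectGroup hM hB' hD,
        Subgroup.card_map_of_injective (Subgroup.subtype_injective _)])
    have hlt : Nat.card T < n := by
      rw [← hn, Nat.card_eq_fintype_card]
      have hne : T ≠ ⊤ := fun h => hinv fun x => (h ▸ Subgroup.mem_top x : x ∈ T)
      rw [← Nat.card_eq_fintype_card]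
      exact (Subgroup.card_le_card_group T).lt_of_ne fun h =>
        hne (Subgroup.eq_top_of_card_eq T h)
    have hle : Set.ncard B ≤ Set.ncard B' := by
      have hsub : ((↑) '' B : Set (G → ℂ)) ⊆
          (fun ψ : IrrCharacter T => indFun T (ψ : T → ℂ)) '' B' := by
        rintro _ ⟨χ, hχ, rfl⟩
        obtain ⟨ψ, hψ, h⟩ := (hiff χ).1 hχ
        exact ⟨ψ, hψ, h.symm⟩
      rw [← Set.ncard_image_of_injective B Subtype.val_injective]
      exact (Set.ncard_le_ncard hsub (Set.toFinite _)).trans (Set.ncard_image_le (Set.toFinite _))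
    rw [hdd] at hd ⊢
    exact hle.trans (ih _ hlt T rfl inferInstance B' hB' hd)

end Cfsg.Agent.SolvBound
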