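import Cfsg.Agent.SolvBound.Tables

/-!
# Class numbers of soluble groups preserving an alternating pairing
-/

set_option autoImplicit false
set_option linter.style.haveILetI false
set_option linter.unusedSectionVars false

namespace Cfsg.Agent.SolvBound

open BaseSize

section Restrict

variable {W : Type} [CommGroup W] {H : Subgroup (MulAut W)} {M : Subgroup W}

/-- The action on an invariant subgroup. -/
def resAut (hM : ∀ h ∈ H, ∀ w ∈ M, h w ∈ M) : H →* MulAut M where
  toFun h :=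
    { toFun := fun w => ⟨(h : MulAut W) w, hM h h.2 w w.2⟩
      invFun := fun w => ⟨((h⁻¹ : H) : MulAut W) w, hM _ (h⁻¹).2 w w.2⟩
      left_inv := fun w => Subtype.ext ((h : MulAut W).symm_apply_apply w)
      right_inv := fun w => Subtype.ext ((h : MulAut W).apply_symm_apply w)
      map_mul' := fun a b => Subtype.ext (map_mul _ (a : W) b) }
  map_one' := rfl
  map_mul' _ _ := rfl

theorem resAut_apply (hM : ∀ h ∈ H, ∀ w ∈ M, h w ∈ M) (h : H) (w : M) :
    (resAut hM h w : W) = (h : MulAut W) w := rfl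

theorem resAut_crm (hcr : CRM H) (hM : ∀ h ∈ H, ∀ w ∈ M, h w ∈ M) : CRM (resAut hM).range := by
  intro K hK
  have hK' : ∀ h ∈ H, ∀ w ∈ K.map M.subtype, h w ∈ K.map M.subtype := by
    rintro h hh _ ⟨w, hw, rfl⟩
    exact ⟨resAut hM ⟨h, hh⟩ w, hK _ ⟨_, rfl⟩ w hw, rfl⟩
  obtain ⟨C, hC, hinf, hsup⟩ := hcr _ hK'
  refine ⟨C.comap M.subtype, ?_, ?_, ?_⟩
  · rintro _ ⟨g, rfl⟩ w hw
    exact hC g g.2 _ hw
  · rw [Subgroup.eq_bot_iff_forall]
    intro w hw
    have : (w : W) ∈ K.map M.subtype ⊓ C := ⟨⟨w, hw.1, rfl⟩, hw.2⟩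
    rw [hinf, Subgroup.mem_bot] at this
    exact Subtype.ext this
  · rw [Subgroup.eq_top_iff']
    intro w
    obtain ⟨m, ⟨m', hm', rfl⟩, c, hc, he⟩ :=
      Subgroup.mem_sup.mp (hsup ▸ Subgroup.mem_top (w : W) :)
    refine Subgroup.mem_sup.mpr ⟨m', hm', m'⁻¹ * w, ?_, mul_inv_cancel_left _ _⟩
    show ((m' : W))⁻¹ * (w : W) ∈ C
    rw [← he]
    simpa using hc

end Restrict

namespace Pairing

variable {W U : Type*} [CommGroup W] [CommGroup U] (P : Pairing W U) [Finite W] [Finite U]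
  [IsCyclic U]

theorem card_perp (M : Subgroup W) : Nat.card (P.perp M) * Nat.card M = Nat.card W := by
  refine le_antisymm ?_ (P.card_le M)
  rw [← Subgroup.card_mul_index (P.perp M)]
  refine Nat.mul_le_mul_left _ ?_
  let f : M → (W ⧸ P.perp M →* U) := fun m =>
    QuotientGroup.lift (P.perp M) (P.ω m) fun w hw => by
      rw [MonoidHom.mem_ker, P.swap, P.mem_perp.mp hw m m.2, inv_one]
  haveI : Finite (W ⧸ P.perp M →* U) := Finite.of_injective _ DFunLike.coe_injective
  refine (Nat.card_le_card_of_injective f fun a b h => ?_).trans card_monoidHom_le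
  refine Subtype.ext (inv_mul_eq_one.mp (P.nondeg ((a : W)⁻¹ * b) fun x => ?_))
  have : P.ω a x = P.ω b x := DFunLike.congr_fun h (QuotientGroup.mk x)
  rw [map_mul, map_inv, MonoidHom.mul_apply, MonoidHom.inv_apply, this, inv_mul_cancel]

end Pairing

theorem pow5_le : ∀ e : ℕ, 2 ≤ e → e ^ 5 ≤ 9 ^ e := by
  intro e he
  induction e, he using Nat.le_induction with
  | base => norm_num
  | succ e he ih =>
    have h1 : (e + 1) * 2 ≤ e * 3 := by omega
    have h2 : (e + 1) ^ 5 * 2 ^ 5 ≤ e ^ 5 * 3 ^ 5 := by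
      rw [← mul_pow, ← mul_pow]; exact Nat.pow_le_pow_left h1 5
    rw [pow_succ 9 e]
    omega

theorem pow10_le : ∀ e : ℕ, 11 ≤ e → e ^ 10 ≤ 9 ^ e := by
  intro e he
  induction e, he using Nat.le_induction with
  | base => norm_num
  | succ e he ih =>
    have h1 : (e + 1) * 11 ≤ e * 12 := by omega
    have h2 : (e + 1) ^ 10 * 11 ^ 10 ≤ e ^ 10 * 12 ^ 10 := by
      rw [← mul_pow, ← mul_pow]; exact Nat.pow_le_pow_left h1 10
    rw [pow_succ 9 e]
    omega

theorem le_three_pow {h m : ℕ} (hm : 1 ≤ m) (hle : 9 * h ^ 2 ≤ 9 ^ m) : h ≤ 3 ^ (m - 1) := by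
  obtain ⟨j, rfl⟩ : ∃ j, m = j + 1 := ⟨m - 1, by omega⟩
  rw [Nat.add_sub_cancel]
  have h9 : 9 ^ (j + 1) = 9 * (3 ^ j) ^ 2 := by
    rw [pow_succ', ← pow_mul 3, mul_comm j, pow_mul]; norm_num
  rw [h9] at hle
  exact (Nat.pow_le_pow_iff_left two_ne_zero).mp (Nat.le_of_mul_le_mul_left hle (by norm_num))

/-- **The class number bound.** -/
theorem core : ∀ N (W U : Type) [CommGroup W] [Finite W] [CommGroup U] [Finite U] [IsCyclic U]
    (P : Pairing W U) (n : ℕ), Squarefree n → (∀ w : W, w ^ n = 1) → Nat.card W = N →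
    ∀ H : Subgroup (MulAut W), Group.IsSolvable H → CRM H →
      (∀ h ∈ H, ∀ x y, P.ω (h x) (h y) = P.ω x y) →
      ∃ e, N = e ^ 2 ∧ 1 ≤ e ∧ KB H (3 ^ (e - 1)) := by
  intro N
  induction N using Nat.strong_induction_on with
  | _ N ih =>
  intro W U _ _ _ _ _ P n hn hexp hN H hsol hcr hω
  classical
  haveI := hsol
  rcases subsingleton_or_nontrivial W with hW | hW
  · haveI : Subsingleton H :=
      ⟨fun a b => Subtype.ext (MulEquiv.ext fun w => Subsingleton.elim _ _)⟩
    exact ⟨1, by rw [← hN, Nat.card_unique, one_pow], le_rfl,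
      KB.of_card_le (Finite.card_le_one_iff_subsingleton.mpr inferInstance)⟩
  -- a non-degenerate invariant subgroup
  by_cases hsplit : ∃ M : Subgroup W, (∀ h ∈ H, ∀ w ∈ M, h w ∈ M) ∧ M ⊓ P.perp M = ⊥ ∧
      M ≠ ⊥ ∧ M ≠ ⊤
  · obtain ⟨M, hM, hnd, hM0, hM1⟩ := hsplit
    obtain ⟨C, rfl⟩ : ∃ C, C = P.perp M := ⟨_, rfl⟩
    have hC : ∀ h ∈ H, ∀ w ∈ P.perp M, h w ∈ P.perp M := fun h hh =>
      P.perp_invariant h (hω h hh) (hM h hh)
    have hprod : Nat.card M * Nat.card (P.perp M) = Nat.card W := by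
      rw [mul_comm]; exact P.card_perp M
    have hC0 : P.perp M ≠ ⊥ := fun h => hM1 (by rw [← P.sup_perp hnd, h, sup_bot_eq])
    have h2 : ∀ X : Subgroup W, X ≠ ⊥ → 2 ≤ Nat.card X := fun X hX => by
      haveI := (Subgroup.nontrivial_iff_ne_bot X).mpr hX
      exact Finite.one_lt_card
    obtain ⟨e₁, he₁, he₁', hk₁⟩ := ih (Nat.card M) (by rw [← hN, ← hprod]; nlinarith [h2 _ hC0, h2 _ hM0])
      M U (P.restrict hnd) n hn (fun w => Subtype.ext (hexp w)) rfl (resAut hM).range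
      (solvable_range hsol _) (resAut_crm hcr hM)
      (by rintro _ ⟨h, rfl⟩ x y; exact hω h h.2 x y)
    obtain ⟨e₂, he₂, he₂', hk₂⟩ := ih (Nat.card (P.perp M))
      (by rw [← hN, ← hprod]; nlinarith [h2 _ hC0, h2 _ hM0])
      (P.perp M) U (P.restrict (P.perp_inf hnd)) n hn (fun w => Subtype.ext (hexp w)) rfl
      (resAut hC).range (solvable_range hsol _) (resAut_crm hcr hC)
      (by rintro _ ⟨h, rfl⟩ x y; exact hω h h.2 x y)
    refine ⟨e₁ * e₂, by rw [← hN, ← hprod, he₁, he₂, mul_pow], Nat.mul_pos he₁' he₂', ?_⟩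
    refine (KB.ext (resAut hM) (a := 3 ^ (e₂ - 1)) ?_ hk₁).mono ?_
    · refine hk₂.comap ((resAut hC).rangeRestrict.comp (resAut hM).ker.subtype) ?_
      rw [injective_iff_map_eq_one]
      intro g hg
      refine Subtype.ext (Subtype.ext (MulEquiv.ext fun w => ?_))
      obtain ⟨a, ha, b, hb, rfl⟩ := Subgroup.mem_sup.mp ((P.sup_perp hnd) ▸ Subgroup.mem_top w :)
      have ha' : ((g : H) : MulAut W) a = a :=
        congrArg Subtype.val (DFunLike.congr_fun (MonoidHom.mem_ker.mp g.2) (⟨a, ha⟩ : M))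
      have hb' : ((g : H) : MulAut W) b = b :=
        congrArg Subtype.val (DFunLike.congr_fun (congrArg Subtype.val hg) (⟨b, hb⟩ : P.perp M))
      show ((g : H) : MulAut W) (a * b) = a * b
      rw [map_mul, ha', hb']
    · rw [← pow_add]
      refine Nat.pow_le_pow_right (by norm_num) ?_
      obtain ⟨a, rfl⟩ : ∃ a, e₁ = a + 1 := ⟨e₁ - 1, by omega⟩
      obtain ⟨b, rfl⟩ : ∃ b, e₂ = b + 1 := ⟨e₂ - 1, by omega⟩
      have : (a + 1) * (b + 1) = a * b + a + b + 1 := by ring
      omega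
  -- `W` has prime exponent
  obtain ⟨r, hr, hrd⟩ := Nat.exists_prime_and_dvd (Finite.one_lt_card (α := W)).ne'
  haveI := Fact.mk hr
  obtain ⟨x, hx⟩ := exists_prime_orderOf_dvd_card' r hrd
  have hx1 : x ≠ 1 := fun h => by rw [h, orderOf_one] at hx; exact hr.one_lt.ne hx
  obtain ⟨s, hs⟩ : r ∣ n := hx ▸ orderOf_dvd_of_pow_eq_one (hexp x)
  have hrs : s.Coprime r := (Nat.coprime_of_squarefree_mul (hs ▸ hn)).symm
  let Wr : Subgroup W := (powMonoidHom r).ker
  have hWr : ∀ {w}, w ∈ Wr ↔ w ^ r = 1 := fun {w} => MonoidHom.mem_ker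
  have hWrtop : Wr = ⊤ := by
    by_contra hne
    refine hsplit ⟨Wr, fun h _ w hw => hWr.mpr (by rw [← map_pow, hWr.mp hw, map_one]), ?_, ?_, hne⟩
    · rw [Subgroup.eq_bot_iff_forall]
      intro w hw
      refine P.nondeg w fun y => ?_
      have h1 : P.ω w (y ^ s) = 1 := P.mem_perp.mp hw.2 _ (hWr.mpr (by
        rw [← pow_mul, mul_comm, ← hs, hexp]))
      rw [map_pow] at h1
      have h2 : P.ω w y ^ r = 1 := by
        rw [← MonoidHom.pow_apply, ← map_pow, hWr.mp hw.1, map_one, MonoidHom.one_apply]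
      exact orderOf_eq_one_iff.mp (Nat.eq_one_of_dvd_coprimes hrs
        (orderOf_dvd_of_pow_eq_one h1) (orderOf_dvd_of_pow_eq_one h2))
    · intro h
      exact hx1 ((Subgroup.eq_bot_iff_forall _).mp h x (hWr.mpr (hx ▸ pow_orderOf_eq_one x)))
  have hexpr : ∀ w : W, w ^ r = 1 := fun w => hWr.mp (hWrtop ▸ Subgroup.mem_top w)
  obtain ⟨e, he⟩ := Pairing.exists_sq (U := U) hn N W P hexp hN
  obtain ⟨k, hk⟩ := (IsPGroup.iff_card (p := r) (G := W)).mp fun w => ⟨1, by rw [pow_one, hexpr]⟩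
  rw [hN, he] at hk
  obtain ⟨m, -, hm⟩ := (Nat.dvd_prime_pow hr).mp (hk ▸ dvd_pow_self e two_ne_zero)
  have he2 : 2 ≤ e := by
    have h1 : 1 < e ^ 2 := by rw [← he, ← hN]; exact Finite.one_lt_card
    by_contra h
    interval_cases e <;> simp at h1
  refine ⟨e, he, by omega, ?_⟩
  by_cases hred : ∃ M : Subgroup W, (∀ h ∈ H, ∀ w ∈ M, h w ∈ M) ∧ M ≠ ⊥ ∧ M ≠ ⊤
  · -- a totally isotropic invariant subgroup which is its own orthogonal
    obtain ⟨A, hA, hA0, hA1⟩ := hred
    let M := A ⊓ P.perp A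
    have hM : ∀ h ∈ H, ∀ w ∈ M, h w ∈ M := fun h hh w hw =>
      ⟨hA h hh w hw.1, P.perp_invariant h (hω h hh) (hA h hh) w hw.2⟩
    have hM0 : M ≠ ⊥ := fun h => hsplit ⟨A, hA, h, hA0, hA1⟩
    have hiso : M ≤ P.perp M := fun w hw =>
      P.mem_perp.mpr fun y hy => P.mem_perp.mp hw.2 y hy.1
    obtain ⟨M', hM', hMM', hsup⟩ := hcr M hM
    have hM'1 : M' ≠ ⊤ := fun h => hM0 (by rwa [h, inf_top_eq] at hMM')
    let Nd := P.perp M ⊓ M'
    have hperpperp : P.perp (P.perp M) = M := by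
      refine (Subgroup.eq_of_le_of_card_ge (fun w hw => P.mem_perp.mpr fun y hy => by
        rw [P.swap, P.mem_perp.mp hy w hw, inv_one]) ?_).symm
      have h1 := P.card_perp M
      have h2 := P.card_perp (P.perp M)
      have hpos : 0 < Nat.card (P.perp M) := Nat.card_pos
      nlinarith
    have hdec : ∀ w ∈ P.perp M, ∃ a ∈ M, ∃ b ∈ Nd, a * b = w := by
      intro w hw
      obtain ⟨a, ha, b, hb, rfl⟩ := Subgroup.mem_sup.mp (hsup ▸ Subgroup.mem_top w :)
      exact ⟨a, ha, b, ⟨by simpa using (P.perp M).mul_mem ((P.perp M).inv_mem (hiso ha)) hw, hb⟩,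
        rfl⟩
    have hNd : Nd ⊓ P.perp Nd = ⊥ := by
      rw [Subgroup.eq_bot_iff_forall]
      intro w hw
      have hwM : w ∈ M := hperpperp ▸ P.mem_perp.mpr fun y hy => by
        obtain ⟨a, ha, b, hb, rfl⟩ := hdec y hy
        rw [map_mul, P.mem_perp.mp hw.1.1 a ha, P.mem_perp.mp hw.2 b hb, one_mul]
      have : w ∈ M ⊓ M' := ⟨hwM, hw.1.2⟩
      rwa [hMM', Subgroup.mem_bot] at this
    have hNd0 : Nd = ⊥ := by
      by_contra hne
      refine hsplit ⟨Nd, fun h hh w hw => ⟨P.perp_invariant h (hω h hh) (hM h hh) w hw.1,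
        hM' h hh w hw.2⟩, hNd, hne, fun h => hM'1 (top_le_iff.mp (h ▸ inf_le_right))⟩
    have hperp : P.perp M = M := le_antisymm (fun w hw => by
      obtain ⟨a, ha, b, hb, rfl⟩ := hdec w hw
      rw [hNd0, Subgroup.mem_bot] at hb
      rwa [hb, mul_one]) hiso
    have hcardM : Nat.card M = e := by
      have h1 := P.card_perp M
      rw [hperp, hN, he, ← sq] at h1
      exact Nat.pow_left_injective two_ne_zero h1
    have hinj : Function.Injective (resAut hM) := by
      rw [injective_iff_map_eq_one]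
      intro g hg
      have hfix : ∀ a ∈ M, (g : MulAut W) a = a := fun a ha =>
        congrArg Subtype.val (DFunLike.congr_fun hg (⟨a, ha⟩ : M))
      refine Subtype.ext (MulEquiv.ext fun w => ?_)
      obtain ⟨a, ha, b, hb, rfl⟩ := Subgroup.mem_sup.mp (hsup ▸ Subgroup.mem_top w :)
      show (g : MulAut W) (a * b) = a * b
      rw [map_mul, hfix a ha]
      congr 1
      have hmem : b⁻¹ * (g : MulAut W) b ∈ M ⊓ M' := by
        refine ⟨hperp.le (P.mem_perp.mpr fun y hy => ?_),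
          M'.mul_mem (M'.inv_mem hb) (hM' g g.2 b hb)⟩
        have h1 := hω g g.2 b y
        rw [hfix y hy] at h1
        rw [map_mul, map_inv, MonoidHom.mul_apply, MonoidHom.inv_apply, h1, inv_mul_cancel]
      rw [hMM', Subgroup.mem_bot, inv_mul_eq_one] at hmem
      exact hmem.symm
    obtain ⟨V, _, _, φ, H', eH, -, -, hs', hc'⟩ :=
      exists_transport (resAut hM).range (solvable_range hsol _) (resAut_crm hcr hM)
    have hV : Nat.card V = e := (Nat.card_congr φ).symm.trans hcardM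
    haveI : Nontrivial V := Finite.one_lt_card_iff_nontrivial.mp (by omega)
    refine KB.of_card_le (le_three_pow (by omega) ?_)
    rw [Nat.card_congr ((MonoidHom.ofInjective hinj).trans eH).toEquiv]
    exact (order_bound hs' hc').trans (hV ▸ pow5_le e he2)
  -- irreducible
  obtain ⟨V, _, _, φ, H', eH, hφm, hφa, hs', hc'⟩ := exists_transport H hsol hcr
  have hV : Nat.card V = e ^ 2 := ((Nat.card_congr φ).symm.trans hN).trans he
  haveI : Nontrivial V := Finite.one_lt_card_iff_nontrivial.mp (by rw [hV]; nlinarith)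
  have hirr : Irr H' := by
    intro A hA
    have hφ1 : φ 1 = 0 := by
      have := hφm 1 1
      rwa [mul_one, right_eq_add] at this
    let M : Subgroup W :=
      { carrier := {w | φ w ∈ A}
        one_mem' := show φ 1 ∈ A by rw [hφ1]; exact A.zero_mem
        mul_mem' := fun {a b} ha hb => show φ (a * b) ∈ A by rw [hφm]; exact A.add_mem ha hb
        inv_mem' := fun {a} ha => show φ a⁻¹ ∈ A by
          have h := hφm a⁻¹ a
          rw [inv_mul_cancel, hφ1, eq_comm] at h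
          rw [eq_neg_of_add_eq_zero_left h]
          exact A.neg_mem ha }
    have hMinv : ∀ h ∈ H, ∀ w ∈ M, h w ∈ M := fun h hh w hw => by
      show φ (h w) ∈ A
      rw [show φ (h w) = _ from hφa ⟨h, hh⟩ w]
      exact hA _ (eH ⟨h, hh⟩).2 _ hw
    by_cases hM0 : M = ⊥
    · left
      rw [AddSubgroup.eq_bot_iff_forall]
      intro v hv
      have : φ.symm v ∈ M := show φ (φ.symm v) ∈ A by rwa [φ.apply_symm_apply]
      rw [hM0, Subgroup.mem_bot] at this
      rw [← φ.apply_symm_apply v, this, hφ1]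
    · right
      have hM1 : M = ⊤ := by
        by_contra h
        exact hred ⟨M, hMinv, hM0, h⟩
      rw [AddSubgroup.eq_top_iff']
      intro v
      have : φ.symm v ∈ M := hM1 ▸ Subgroup.mem_top _
      exact (φ.apply_symm_apply v) ▸ (this : φ (φ.symm v) ∈ A)
  rcases Nat.lt_or_ge e 11 with h11 | h11
  swap
  · refine (KB.of_card_le (le_three_pow (by omega) ?_)).congr eH
    refine (order_bound hs' hc').trans ?_
    rw [hV, ← pow_mul]
    exact pow10_le e h11
  have hW4 : Nat.card W = e ^ 2 := hN.trans he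
  have hprime : e.Prime → r = e := fun h =>
    ((Nat.prime_dvd_prime_iff_eq h hr).mp (h.dvd_of_dvd_pow (dvd_of_eq hm))).symm
  interval_cases e
  · refine ((kb_four hV).subgroup H').congr eH
  · obtain rfl := hprime Nat.prime_three
    obtain ⟨f, hf⟩ := exists_sl2_embedding P hexpr hW4 H hω
    exact kb_sl2_three.comap f hf
  · exact (kb_irr_sixteen hV hs' hirr).congr eH
  · obtain rfl := hprime Nat.prime_five
    obtain ⟨f, hf⟩ := exists_sl2_embedding P hexpr hW4 H hω
    exact kb_sl2_five.comap f hf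
  · exfalso
    have h2 := (Nat.prime_dvd_prime_iff_eq Nat.prime_two hr).mp
      (Nat.prime_two.dvd_of_dvd_pow (hm ▸ (by norm_num : 2 ∣ 6)))
    have h3 := (Nat.prime_dvd_prime_iff_eq Nat.prime_three hr).mp
      (Nat.prime_three.dvd_of_dvd_pow (hm ▸ (by norm_num : 3 ∣ 6)))
    omega
  · obtain rfl := hprime (by norm_num)
    obtain ⟨f, hf⟩ := exists_sl2_embedding P hexpr hW4 H hω
    exact KB.of_card_le ((Nat.card_le_card_of_injective f hf).trans
      (card_sl2_le.trans (by norm_num)))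
  · exact (KB.of_card_le ((card_irr_sixtyfour hV hs' hirr).trans (by norm_num))).congr eH
  · exact (KB.of_card_le ((card_irr_eightyone hV hs' hirr).trans (by norm_num))).congr eH
  · exfalso
    have h2 := (Nat.prime_dvd_prime_iff_eq Nat.prime_two hr).mp
      (Nat.prime_two.dvd_of_dvd_pow (hm ▸ (by norm_num : 2 ∣ 10)))
    have h5 := (Nat.prime_dvd_prime_iff_eq Nat.prime_five hr).mp
      (Nat.prime_five.dvd_of_dvd_pow (hm ▸ (by norm_num : 5 ∣ 10)))
    omega

end Cfsg.Agent.SolvBound
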