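import Cfsg.Agent.SolvBound.Semidirect
import Cfsg.Agent.S4958

/-!
# `k(VL) ≤ 3 ^ (a - 1) * p ^ a` for coprime soluble `L` on `V` of order `p ^ a`
-/

set_option autoImplicit false
set_option linter.style.haveILetI false
set_option linter.unusedSectionVars false

open scoped commutatorElement

namespace Cfsg.Agent.SolvBound

open BaseSize

variable {V : Type} [AddCommGroup V] [Finite V]

theorem card_pow_of_exponent {p : ℕ} [Fact p.Prime] (hV : ∀ v : V, p • v = 0) :
    ∃ a, Nat.card V = p ^ a := by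
  letI := AddCommGroup.zmodModule hV
  haveI : Module.Finite (ZMod p) V := Module.Finite.of_finite
  exact ⟨Module.finrank (ZMod p) V, by rw [Module.natCard_eq_pow_finrank (K := ZMod p), Nat.card_zmod]⟩

/-- A projection onto a subgroup. -/
theorem exists_add_projection {p : ℕ} [Fact p.Prime] (hV : ∀ v : V, p • v = 0) (U : AddSubgroup V) :
    ∃ q : V →+ V, (∀ v, q v ∈ U) ∧ ∀ u ∈ U, q u = u := by
  let _ : Module (ZMod p) V := AddCommGroup.zmodModule hV
  let S : Submodule (ZMod p) V :=
    { U with smul_mem' := fun c x (hx : x ∈ U) => (ZMod.smul_mem (K := U) hx c : c • x ∈ U) }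
  obtain ⟨π₀, hπ₀⟩ := S.exists_isCompl
  exact ⟨(Submodule.projection S π₀ hπ₀).toAddMonoidHom,
    fun v => (Submodule.projection_apply_mem hπ₀ v : _),
    fun u hu => Submodule.projection_apply_of_mem_left hπ₀ hu⟩

/-- Maschke: an invariant projection. -/
theorem exists_projection {p : ℕ} [Fact p.Prime] (hV : ∀ v : V, p • v = 0)
    (L : Subgroup (AddMonoid.End V)ˣ) (hcop : (Nat.card L).Coprime p) (U : AddSubgroup V)
    (hU : ∀ g ∈ L, ∀ v ∈ U, g • v ∈ U) :
    ∃ π : AddMonoid.End V, (∀ v, π v ∈ U) ∧ (∀ u ∈ U, π u = u) ∧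
      ∀ (g : L) v, π (g • v) = g • π v := by
  classical
  haveI : Fintype L := Fintype.ofFinite L
  obtain ⟨q, hq1, hq2⟩ := exists_add_projection hV U
  letI := AddCommGroup.zmodModule hV
  obtain ⟨m, hm⟩ : ∃ m : ℕ, ∀ v : V, m • (Nat.card L • v) = v := by
    refine ⟨((Nat.card L : ZMod p)⁻¹).val, fun v => ?_⟩
    have hne : (Nat.card L : ZMod p) ≠ 0 := by
      rw [ne_eq, ZMod.natCast_eq_zero_iff]
      intro h
      exact (Fact.out : p.Prime).one_lt.ne' (Nat.eq_one_of_dvd_coprimes hcop h dvd_rfl)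
    rw [← mul_nsmul', ← Nat.cast_smul_eq_nsmul (ZMod p), Nat.cast_mul, ZMod.natCast_zmod_val,
      inv_mul_cancel₀ hne, one_smul]
  refine ⟨m • ∑ g : L, ((DistribSMul.toAddMonoidHom V g).comp
    (q.comp (DistribSMul.toAddMonoidHom V g⁻¹)) : AddMonoid.End V), fun v => ?_, fun u hu => ?_,
    fun x v => ?_⟩
  · show m • (∑ g : L, _ : V →+ V) v ∈ U
    rw [AddMonoidHom.finsetSum_apply]
    exact U.nsmul_mem (U.sum_mem fun (g : L) _ => hU (g : (AddMonoid.End V)ˣ) (SetLike.coe_mem g) _ (hq1 _)) m
  · show m • (∑ g : L, _ : V →+ V) u = u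
    rw [AddMonoidHom.finsetSum_apply]
    refine Eq.trans ?_ (hm u)
    congr 1
    rw [Nat.card_eq_fintype_card, ← Finset.card_univ, ← Finset.sum_const]
    refine Finset.sum_congr rfl fun g _ => ?_
    show g • q (g⁻¹ • u) = u
    rw [hq2 (g⁻¹ • u) (hU _ (g⁻¹).2 u hu), smul_inv_smul]
  · show m • (∑ g : L, _ : V →+ V) (x • v) = x • (m • (∑ g : L, _ : V →+ V) v)
    rw [AddMonoidHom.finsetSum_apply, AddMonoidHom.finsetSum_apply, smul_comm x m,
      Finset.smul_sum (r := x)]
    congr 1
    refine Fintype.sum_equiv (Equiv.mulLeft x⁻¹) _ _ fun g => ?_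
    show g • q (g⁻¹ • x • v) = x • ((x⁻¹ * g) • q ((x⁻¹ * g)⁻¹ • v))
    rw [smul_smul g⁻¹, mul_inv_rev, inv_inv, smul_smul x, mul_inv_cancel_left]

/-- The kernel of a homomorphism to `G ⧸ B` and the class number of that quotient. -/
theorem kb_quot {G : Type} [Group G] [Finite G] (D : BD G) {b d : ℕ} (hb : KB D.linRange b)
    (hd : D.lin.index ≤ d) [D.B.Normal] : KB (G ⧸ D.B) (b * d) := by
  haveI := D.lin_normal
  haveI := D.cyclic
  have hker : D.B ≤ D.act.ker := fun g hg => by
    refine MonoidHom.mem_ker.mpr (MulEquiv.ext fun w => ?_)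
    obtain ⟨x, rfl⟩ := QuotientGroup.mk_surjective w
    show ((D.conjB g x : D.B) : D.W) = (x : D.W)
    rw [QuotientGroup.eq]
    show ((D.conjB g x)⁻¹ * x : D.B).1 ∈ D.U
    rw [Subgroup.coe_mul, Subgroup.coe_inv, D.conjB_val]
    have := D.comm_mem hg (inv_mem x.2)
    convert this using 1
    rw [commutatorElement_def]
    group
  let φ : G ⧸ D.B →* MulAut D.W := QuotientGroup.lift D.B D.act hker
  let f : G ⧸ D.B →* G ⧸ D.lin :=
    QuotientGroup.map D.B D.lin (MonoidHom.id G) (by simpa using D.B_le_lin)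
  refine KB.ext f ?_ (KB.of_card_le ((Subgroup.card_le_card_group _).trans hd))
  have hmem : ∀ x : f.ker, φ (x : G ⧸ D.B) ∈ D.linRange := by
    rintro ⟨x, hx⟩
    obtain ⟨g, rfl⟩ := QuotientGroup.mk_surjective x
    exact ⟨⟨g, (QuotientGroup.eq_one_iff (N := D.lin) g).mp (MonoidHom.mem_ker.mp hx :)⟩, rfl⟩
  refine hb.comap ((φ.comp f.ker.subtype).codRestrict D.linRange hmem) ?_
  rw [injective_iff_map_eq_one]
  rintro ⟨x, hx⟩ h
  obtain ⟨g, rfl⟩ := QuotientGroup.mk_surjective x
  exact Subtype.ext ((QuotientGroup.eq_one_iff g).mpr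
    (D.mem_B_of_act ((QuotientGroup.eq_one_iff (N := D.lin) g).mp (MonoidHom.mem_ker.mp hx :))
      (congrArg Subtype.val h :)))

/-- The abelian stabiliser criterion, on the semidirect product. -/
theorem kc_sd_le_card {p : ℕ} [Fact p.Prime] (hV : ∀ v : V, p • v = 0)
    (N : Subgroup (AddMonoid.End V)ˣ) (hcop : (Nat.card N).Coprime p) (v : V)
    (hab : ∀ x y : N, x • v = v → y • v = v → x * y = y * x) : kc (SD N) ≤ Nat.card V := by
  classical
  rw [← card_Vpart N]
  have hcomp : Subgroup.IsComplement' (Vpart N)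
      (SemidirectProduct.inr : N →* SD N).range := by
    refine Subgroup.isComplement'_of_card_mul_and_disjoint ?_ ?_
    · rw [card_Vpart, ← Nat.card_congr (MonoidHom.ofInjective SemidirectProduct.inr_injective).toEquiv,
        Nat.card_congr SemidirectProduct.equivProd, Nat.card_prod]
      rfl
    · rw [Subgroup.disjoint_def]
      rintro _ h1 ⟨n, rfl⟩
      rw [mem_Vpart, SemidirectProduct.right_inr] at h1
      rw [h1, map_one]
  refine S4958.result p (Vpart N) ?_ ?_ ?_ _ hcomp
    (SemidirectProduct.inl (Multiplicative.ofAdd v)) ⟨_, rfl⟩ ?_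
  · rintro _ ⟨w, rfl⟩
    rw [← map_pow, show w ^ p = 1 from congrArg Multiplicative.ofAdd (hV w.toAdd), map_one]
  · rw [hcomp.symm.index_eq_card,
      ← Nat.card_congr (MonoidHom.ofInjective SemidirectProduct.inr_injective).toEquiv]
    exact fun h => (Fact.out : p.Prime).one_lt.ne' (Nat.eq_one_of_dvd_coprimes hcop h dvd_rfl)
  · ext x
    rw [mem_Vpart, Subgroup.mem_centralizer_iff]
    constructor
    · intro h
      refine Subtype.ext (Units.ext (DFunLike.ext _ _ fun w => ?_))
      show x.right • w = w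
      have h1 := congrArg SemidirectProduct.left
        (h (SemidirectProduct.inl (Multiplicative.ofAdd w)) ⟨_, rfl⟩)
      simp only [SemidirectProduct.mul_left, SemidirectProduct.left_inl,
        SemidirectProduct.right_inl, map_one, MulAut.one_apply] at h1
      rw [mul_comm] at h1
      exact congrArg Multiplicative.toAdd (mul_left_cancel h1).symm
    · rintro hx _ ⟨w, rfl⟩
      refine SemidirectProduct.ext ?_ ?_
      · simp [hx, mul_comm]
      · simp [hx]
  · rintro _ ⟨⟨m, rfl⟩, hm⟩ _ ⟨⟨n, rfl⟩, hn⟩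
    have hfix : ∀ l : N, SemidirectProduct.inr l ∈
        Subgroup.centralizer ({SemidirectProduct.inl (Multiplicative.ofAdd v)} : Set (SD N)) →
        l • v = v := fun l hl => by
      have h1 := congrArg SemidirectProduct.left (Subgroup.mem_centralizer_singleton_iff.mp hl)
      simp only [SemidirectProduct.mul_left, SemidirectProduct.left_inr, SemidirectProduct.left_inl,
        SemidirectProduct.right_inr, SemidirectProduct.right_inl, map_one, MulAut.one_apply,
        one_mul, mul_one] at h1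
      exact congrArg Multiplicative.toAdd h1
    rw [← map_mul, ← map_mul, hab m n (hfix m hm) (hfix n hn)]

/-- **The coprime soluble `k(GV)` bound with a factor `3 ^ (a - 1)`.** -/
theorem kgv {p : ℕ} [hp : Fact p.Prime] : ∀ a, ∀ (V : Type) [AddCommGroup V] [Finite V],
    (∀ v : V, p • v = 0) → Nat.card V = p ^ a → 1 ≤ a → ∀ L : Subgroup (AddMonoid.End V)ˣ,
    Group.IsSolvable L → (Nat.card L).Coprime p → kc (SD L) ≤ 3 ^ (a - 1) * p ^ a := by
  intro a
  induction a using Nat.strong_induction_on with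
  | _ a ih =>
  intro V _ _ hV hcard ha L hsol hcop
  classical
  have hp2 := hp.out.two_le
  haveI : Nontrivial V := Finite.one_lt_card_iff_nontrivial.mp (by
    rw [hcard]; exact Nat.one_lt_pow (by omega) hp.out.one_lt)
  by_cases hno : NoDecomp L
  swap
  · simp only [NoDecomp, not_forall, not_isEmpty_iff] at hno
    obtain ⟨t, ht, ⟨d⟩⟩ := hno
    haveI := hsol
    let B : Subgroup (AddMonoid.End V)ˣ := d.π.ker.map L.subtype
    have hBL : B ≤ L := Subgroup.map_subtype_le _
    have hcomm : ∀ i (g : B) v, d.p i (g • v) = g • d.p i v := by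
      rintro i ⟨_, g, hg, rfl⟩ v
      have h := d.smul_p g i v
      rw [show d.act g i = i from DFunLike.congr_fun (MonoidHom.mem_ker.mp hg) i] at h
      exact h.symm
    choose c hc using fun i => card_pow_of_exponent (V := AddMonoidHom.range (d.p i)) (p := p)
      fun w => Subtype.ext (hV w)
    have hc1 : ∀ i, 1 ≤ c i := fun i => by
      haveI : Nontrivial (AddMonoidHom.range (d.p i)) := by
        rw [AddSubgroup.nontrivial_iff_ne_bot]
        exact fun h => d.nonzero i (AddMonoidHom.range_eq_bot_iff.mp h)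
      have h2 := Finite.one_lt_card (α := AddMonoidHom.range (d.p i))
      rw [hc i] at h2
      rcases Nat.eq_zero_or_pos (c i) with h | h
      · rw [h, pow_zero] at h2; omega
      · exact h
    have hsum : ∑ i, c i = a := by
      let e : (∀ i, AddMonoidHom.range (d.p i)) → V := fun x => ∑ i, (x i : V)
      have hpe : ∀ (x : ∀ i, AddMonoidHom.range (d.p i)) i, d.p i (e x) = x i := fun x i => by
        rw [map_sum, Finset.sum_eq_single i]
        · obtain ⟨u, hu⟩ := (x i).2
          rw [← hu]; exact DFunLike.congr_fun (d.idem i) u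
        · intro j _ hj
          obtain ⟨u, hu⟩ := (x j).2
          rw [← hu]
          exact (d.p_p i j u).trans (if_neg (Ne.symm hj))
        · exact fun h => absurd (Finset.mem_univ i) h
      have he : Function.Bijective e :=
        ⟨fun x y h => funext fun i => Subtype.ext (by rw [← hpe x i, h, hpe y i]),
          fun v => ⟨fun i => ⟨d.p i v, v, rfl⟩, d.apply_total v⟩⟩
      refine Nat.pow_right_injective hp2 ?_
      show p ^ (∑ i, c i) = p ^ a
      rw [← hcard, ← Nat.card_eq_of_bijective e he, Nat.card_pi, ← Finset.prod_pow_eq_pow_sum]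
      exact Finset.prod_congr rfl fun i _ => (hc i).symm
    have hclt : ∀ i, c i < a := fun i => by
      obtain ⟨j, hj⟩ : ∃ j, j ≠ i := Fintype.exists_ne_of_one_lt_card (by simp; omega) i
      rw [← hsum]
      exact Finset.single_lt_sum hj (Finset.mem_univ i) (Finset.mem_univ j) (hc1 j)
        fun _ _ _ => Nat.zero_le _
    have hB : kc (SD B) ≤ ∏ i, 3 ^ (c i - 1) * p ^ c i :=
      kc_sd_decomp B d.p d.apply_total (fun i j h v => DFunLike.congr_fun (d.orth i j h) v)
        (fun i v => DFunLike.congr_fun (d.idem i) v) hcomm _ fun i K hKs hKd =>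
        ih (c i) (hclt i) _ (fun w => Subtype.ext (hV w)) (hc i) (hc1 i) K
          (hKs (Group.isSolvable_of_isSolvable_injective (Subgroup.inclusion_injective hBL)))
          (hcop.coprime_dvd_left (hKd.trans (Subgroup.card_dvd_of_le hBL)))
    let θ : SD L →* Equiv.Perm (Fin t) := d.π.comp SemidirectProduct.rightHom
    have hVker : Vpart L ≤ θ.ker := fun x hx => by
      rw [MonoidHom.mem_ker]
      show d.π x.right = 1
      rw [mem_Vpart.mp hx, map_one]
    obtain ⟨L', -, ⟨eker⟩, hL'⟩ := exists_sd_equiv θ.ker hVker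
    have hL'B : L' = B := by
      rw [hL']
      show Subgroup.map L.subtype _ = d.π.ker.map L.subtype
      congr 1
      show Subgroup.map _ ((d.π.comp SemidirectProduct.rightHom).ker) = d.π.ker
      rw [← MonoidHom.comap_ker, Subgroup.map_comap_eq_self_of_surjective
        SemidirectProduct.rightHom_surjective]
    subst hL'B
    haveI : Nonempty (Fin t) := ⟨⟨0, by omega⟩⟩
    have hT : Nat.card θ.range ≤ 3 ^ (t - 1) := by
      refine (Nat.card_le_card_of_injective _ (Subgroup.inclusion_injective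
        (show θ.range ≤ d.π.range from fun _ ⟨x, hx⟩ => ⟨x.right, hx⟩))).trans ?_
      exact (solvable_perm_card_le d.π.range (solvable_range hsol _)).trans_eq (by rw [Nat.card_fin])
    calc kc (SD L) ≤ kc θ.ker * kc (SD L ⧸ θ.ker) := kc_le_mul _
      _ ≤ (∏ i, 3 ^ (c i - 1) * p ^ c i) * 3 ^ (t - 1) :=
          Nat.mul_le_mul ((kc_congr eker).symm.trans_le hB)
            ((kc_congr (QuotientGroup.quotientKerEquivRange θ)).trans_le
              ((kc_le_card _).trans hT))
      _ = 3 ^ (∑ i, (c i - 1) + (t - 1)) * p ^ a := by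
          rw [Finset.prod_mul_distrib, Finset.prod_pow_eq_pow_sum, Finset.prod_pow_eq_pow_sum,
            hsum, pow_add]
          ring
      _ ≤ 3 ^ (a - 1) * p ^ a := by
          refine Nat.mul_le_mul_right _ (Nat.pow_le_pow_right (by norm_num) ?_)
          have h1 : ∑ i, (c i - 1) + t = a := by
            have : t = ∑ _i : Fin t, 1 := by simp
            conv_lhs => arg 2; rw [this]
            rw [← Finset.sum_add_distrib, ← hsum]
            exact Finset.sum_congr rfl fun i _ => Nat.sub_add_cancel (hc1 i)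
          omega
  -- no decomposition: irreducible and primitive
  have hirr : Irr L := by
    intro U hU
    obtain ⟨π, hπU, hπid, hπc⟩ := exists_projection hV L hcop U hU
    by_contra hcon
    simp only [not_or] at hcon
    have hππ : π * π = π := DFunLike.ext _ _ fun v => hπid _ (hπU v)
    have hπ0 : π ≠ 0 := fun h => hcon.1 ((AddSubgroup.eq_bot_iff_forall U).mpr fun u hu => by
      rw [← hπid u hu, h]; rfl)
    have hπ1 : π ≠ 1 := fun h => hcon.2 ((AddSubgroup.eq_top_iff' U).mpr fun v => by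
      have := hπU v
      rwa [h] at this)
    refine (hno 2 le_rfl).false
      { p := ![π, 1 - π]
        total := by simp [Fin.sum_univ_two]
        orth := fun i j h => by
          fin_cases i <;> fin_cases j <;> simp_all [mul_sub, sub_mul]
        nonzero := fun i => by
          fin_cases i
          · exact hπ0
          · exact fun h => hπ1 (sub_eq_zero.mp h).symm
        perm := fun g hg i => ⟨i, by
          have hc : (g : AddMonoid.End V) * π = π * (g : AddMonoid.End V) :=
            DFunLike.ext _ _ fun v => (hπc ⟨g, hg⟩ v).symm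
          fin_cases i
          · exact hc
          · show (g : AddMonoid.End V) * (1 - π) = (1 - π) * (g : AddMonoid.End V)
            rw [mul_sub, sub_mul, mul_one, one_mul, hc]⟩ }
  obtain ⟨G, D, p₀, d, n, hLG, hp₀, hd, hn, hG, hVc, -, hidx, hWn, -, hfree⟩ :=
    primitive_data hsol hirr hno
  haveI := hG
  haveI := D.cyclic
  haveI := D.normal
  obtain ⟨-, hdn⟩ := prime_pow_split (k := a) hp₀ hp.out hd hn (by rw [← hVc, hcard])
  obtain ⟨e, he, he1, hkb⟩ := core _ D.W D.U D.pairing D.n D.hn D.pow_eq_one rfl D.linRange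
    (solvable_range inferInstance _) D.linRange_crm
    (by rintro _ ⟨⟨g, hg⟩, rfl⟩ x y; exact D.pairing_act hg x y)
  have hen : e ≤ n := by
    rw [he] at hWn
    exact (Nat.pow_le_pow_iff_left two_ne_zero).mp hWn
  have hQ := kb_quot D hkb hidx
  let θ : SD L →* G ⧸ D.B :=
    (QuotientGroup.mk' D.B).comp ((Subgroup.inclusion hLG).comp SemidirectProduct.rightHom)
  have hVker : Vpart L ≤ θ.ker := fun x hx => by
    rw [MonoidHom.mem_ker]
    show QuotientGroup.mk' D.B (Subgroup.inclusion hLG x.right) = 1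
    rw [mem_Vpart.mp hx, map_one, map_one]
  obtain ⟨N, hNL, ⟨eker⟩, hNdef⟩ := exists_sd_equiv θ.ker hVker
  have hNB : ∀ x : N, (⟨(x : (AddMonoid.End V)ˣ), hLG (hNL x.2)⟩ : G) ∈ D.B := by
    rintro ⟨x, hx⟩
    rw [hNdef] at hx
    obtain ⟨_, ⟨z, hz, rfl⟩, rfl⟩ := hx
    exact (QuotientGroup.eq_one_iff _).mp (MonoidHom.mem_ker.mp hz :)
  obtain ⟨v, hv⟩ := exists_ne (0 : V)
  have hker : kc (SD N) ≤ Nat.card V := by
    refine kc_sd_le_card hV N (hcop.coprime_dvd_left (Subgroup.card_dvd_of_le hNL)) v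
      fun x y hx hy => ?_
    let x' : G := ⟨x, hLG (hNL x.2)⟩
    let y' : G := ⟨y, hLG (hNL y.2)⟩
    have hfix : (⁅x', y'⁆ : G) • v = v := by
      show ((⁅x, y⁆ : N) : (AddMonoid.End V)ˣ) • v = v
      have hx' : x⁻¹ • v = v := by rw [inv_smul_eq_iff, hx]
      have hy' : y⁻¹ • v = v := by rw [inv_smul_eq_iff, hy]
      show (⁅x, y⁆ : N) • v = v
      rw [commutatorElement_def, mul_smul, mul_smul, mul_smul, hy', hx', hy, hx]
    have h1 := hfree _ (D.comm_mem (hNB x) (hNB y)) v hv hfix
    have h2 := commutatorElement_eq_one_iff_mul_comm.mp h1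
    exact Subtype.ext (congrArg (fun z : G => (z : (AddMonoid.End V)ˣ)) h2 :)
  calc kc (SD L) ≤ kc θ.ker * kc (SD L ⧸ θ.ker) := kc_le_mul _
    _ ≤ p ^ a * (3 ^ (e - 1) * d) :=
        Nat.mul_le_mul ((kc_congr eker).symm.trans_le (hker.trans_eq hcard))
          ((kc_congr (QuotientGroup.quotientKerEquivRange θ)).trans_le (hQ θ.range))
    _ ≤ p ^ a * (3 ^ (e - 1) * 3 ^ (d - 1)) := by
        refine Nat.mul_le_mul_left _ (Nat.mul_le_mul_left _ ?_)
        obtain ⟨m, rfl⟩ : ∃ m, d = m + 1 := ⟨d - 1, by omega⟩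
        rw [Nat.add_sub_cancel]
        exact Nat.lt_pow_self (by norm_num)
    _ ≤ 3 ^ (a - 1) * p ^ a := by
        rw [← pow_add, mul_comm]
        refine Nat.mul_le_mul_right _ (Nat.pow_le_pow_right (by norm_num) ?_)
        obtain ⟨i, rfl⟩ : ∃ i, d = i + 1 := ⟨d - 1, by omega⟩
        obtain ⟨j, rfl⟩ : ∃ j, n = j + 1 := ⟨n - 1, by omega⟩
        rw [← hdn, show (i + 1) * (j + 1) = i * j + i + j + 1 by ring]
        omega

end Cfsg.Agent.SolvBound
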