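import Cfsg.Agent.SolvBound.Kgv
import Cfsg.Agent.PSolv.HallHigman
import Cfsg.Agent.PGroup.Frattini
import Cfsg.Agent.Cores.Basic

/-!
# The class number of a soluble group with trivial `p'`-core
-/

set_option autoImplicit false
set_option linter.style.haveILetI false
set_option linter.unusedSectionVars false

open scoped commutatorElement

namespace Cfsg.Agent.SolvBound

open Cfsg

variable {H : Type} [Group H] [Finite H] {p : ℕ} [hp : Fact p.Prime]

/-- The Frattini quotient of a `p`-group is abelian. -/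
@[reducible] def commGroupFrattiniQuotient {P : Type} [Group P] [Finite P] (hP : IsPGroup p P) :
    CommGroup (P ⧸ frattini P) :=
  { (inferInstance : Group (P ⧸ frattini P)) with
    mul_comm := fun a b => by
      obtain ⟨a, rfl⟩ := QuotientGroup.mk_surjective a
      obtain ⟨b, rfl⟩ := QuotientGroup.mk_surjective b
      rw [← QuotientGroup.mk_mul, ← QuotientGroup.mk_mul, QuotientGroup.eq,
        show (a * b)⁻¹ * (b * a) = ⁅b⁻¹, a⁻¹⁆ by simp [commutatorElement_def, mul_assoc]]
      exact PGroup.commutatorElement_mem_frattini hP _ _ }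

/-- Conjugation on the Frattini quotient of a normal subgroup. -/
noncomputable def frattiniAct (P : Subgroup H) [P.Normal] : H →* MulAut (P ⧸ frattini P) where
  toFun h := QuotientGroup.congr (frattini P) (frattini P) (MulAut.conjNormal h)
    (Subgroup.characteristic_iff_map_eq.mp inferInstance _)
  map_one' := MulEquiv.ext fun x => by
    obtain ⟨x, rfl⟩ := QuotientGroup.mk_surjective x
    show ((MulAut.conjNormal (1 : H) x : P) : P ⧸ frattini P) = _
    rw [map_one]
    rfl
  map_mul' g h := MulEquiv.ext fun x => by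
    obtain ⟨x, rfl⟩ := QuotientGroup.mk_surjective x
    show ((MulAut.conjNormal (g * h) x : P) : P ⧸ frattini P) = _
    rw [map_mul]
    rfl

theorem frattiniAct_mk (P : Subgroup H) [P.Normal] (h : H) (x : P) :
    frattiniAct P h (x : P ⧸ frattini P) = ((MulAut.conjNormal h x : P) : P ⧸ frattini P) := rfl

/-- The kernel of the action on the Frattini quotient of `O_p`. -/
theorem frattiniAct_ker (hsol : Group.IsSolvable H) (hO : pPrimeCore p H = ⊥) :
    (frattiniAct (pCore p H)).ker = pCore p H := by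
  have hP : IsPGroup p (pCore p H) := Cores.pCore_isPGroup
  refine le_antisymm ?_ fun g hg => ?_
  · refine Cores.le_pCore inferInstance fun g => ?_
    obtain ⟨k, m, hm, hgo⟩ := Nat.exists_eq_pow_mul_and_not_dvd
      (orderOf_pos (g : H)).ne' p hp.out.ne_one
    refine ⟨k, Subtype.ext ?_⟩
    have hmem : ((g : H)) ^ p ^ k ∈ (frattiniAct (pCore p H)).ker := pow_mem g.2 _
    have hord : (orderOf ((g : H) ^ p ^ k)).Coprime p := by
      rw [orderOf_pow' _ (pow_ne_zero _ hp.out.ne_zero), hgo,
        Nat.gcd_eq_right (dvd_mul_right _ _), Nat.mul_div_cancel_left _ (pow_pos hp.out.pos _)]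
      exact Nat.Coprime.symm (hp.out.coprime_iff_not_dvd.mpr hm)
    have hc : (g : H) ^ p ^ k ∈ pCore p H := by
      refine PSolv.centralizer_pCore_le (PSolv.isPSolvable_of_isSolvable hsol) hO
        (Subgroup.mem_centralizer_iff.mpr fun x hx => ?_)
      refine (PGroup.commute_of_coprime_of_frattini hP hord ?_ (fun y hy => ?_) x hx).symm
      · rw [Subgroup.normalizer_eq_top]; exact Subgroup.mem_top _
      · have h1 := DFunLike.congr_fun (MonoidHom.mem_ker.mp hmem)
          ((⟨y, hy⟩ : pCore p H) : pCore p H ⧸ frattini (pCore p H))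
        rw [frattiniAct_mk, MulAut.one_apply, eq_comm, QuotientGroup.eq] at h1
        exact ⟨_, h1, by
          show y⁻¹ * ((MulAut.conjNormal ((g : H) ^ p ^ k) ⟨y, hy⟩ : pCore p H) : H) = _
          rw [MulAut.conjNormal_apply]⟩
    obtain ⟨i, hi⟩ := hP ⟨_, hc⟩
    have hi' : ((g : H) ^ p ^ k) ^ p ^ i = 1 := congrArg Subtype.val hi
    have h1 : orderOf ((g : H) ^ p ^ k) = 1 :=
      Nat.eq_one_of_dvd_coprimes (hord.pow_right i) dvd_rfl (orderOf_dvd_of_pow_eq_one hi')
    simpa using orderOf_eq_one_iff.mp h1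
  · refine MonoidHom.mem_ker.mpr (MulEquiv.ext fun x => ?_)
    obtain ⟨x, rfl⟩ := QuotientGroup.mk_surjective x
    rw [frattiniAct_mk, MulAut.one_apply, eq_comm, QuotientGroup.eq,
      show x⁻¹ * MulAut.conjNormal g x = ⁅x⁻¹, (⟨g, hg⟩ : pCore p H)⁆ from Subtype.ext (by
        simp [commutatorElement_def, mul_assoc])]
    exact PGroup.commutatorElement_mem_frattini hP _ _

/-- **Soluble groups with trivial `p'`-core.** -/
theorem kc_le_of_pPrimeCore_eq_bot : ∀ n, ∀ (H : Type) [Group H] [Finite H], Nat.card H = n →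
    Group.IsSolvable H → pPrimeCore p H = ⊥ → ∀ b, (Nat.card H).factorization p = b → 1 ≤ b →
    kc H ≤ 3 ^ (b - 1) * p ^ b := by
  intro n
  induction n using Nat.strong_induction_on with
  | _ n ih =>
  intro H _ _ hn hsol hO b hb hb1
  classical
  haveI := hsol
  have hP : IsPGroup p (pCore p H) := Cores.pCore_isPGroup
  letI := commGroupFrattiniQuotient hP
  let V : Type := Additive (pCore p H ⧸ frattini (pCore p H))
  haveI : Finite V := inferInstanceAs (Finite (pCore p H ⧸ frattini (pCore p H)))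
  let φ : H →* (AddMonoid.End V)ˣ :=
    (toEnd (pCore p H ⧸ frattini (pCore p H))).comp (frattiniAct (pCore p H))
  have hker : φ.ker = pCore p H := by
    refine Eq.trans ?_ (frattiniAct_ker hsol hO)
    ext g
    rw [MonoidHom.mem_ker, MonoidHom.mem_ker]
    exact ⟨fun h => toEnd_injective _ (h.trans (map_one _).symm), fun h => by
      show toEnd _ (frattiniAct (pCore p H) g) = 1
      rw [h, map_one]⟩
  have hV : ∀ v : V, p • v = 0 := fun v => by
    show Additive.ofMul (v.toMul ^ p) = 0
    obtain ⟨x, hx⟩ := QuotientGroup.mk_surjective v.toMul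
    rw [← hx, ← QuotientGroup.mk_pow,
      (QuotientGroup.eq_one_iff _).mpr (PGroup.pow_mem_frattini hP x)]
    rfl
  obtain ⟨a, ha⟩ := card_pow_of_exponent hV
  -- the Frattini subgroup
  let Φ : Subgroup H := (frattini (pCore p H)).map (pCore p H).subtype
  haveI : Φ.Normal := Cores.normal_map_subtype_of_characteristic _
  obtain ⟨f, hf⟩ := IsPGroup.iff_card.mp (hP.to_subgroup (frattini (pCore p H)))
  have hΦ : Nat.card Φ = p ^ f := by
    rw [Subgroup.card_map_of_injective (Subgroup.subtype_injective _), hf]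
  have hPcard : Nat.card (pCore p H) = p ^ a * p ^ f := by
    rw [Subgroup.card_eq_card_quotient_mul_card_subgroup (frattini (pCore p H)), hf, ← ha]
    rfl
  have ha1 : 1 ≤ a := by
    by_contra h
    have hb0 : pCore p H = ⊥ := by
      have hfr : frattini (pCore p H) = ⊤ := by
        refine Subgroup.eq_top_of_card_eq _ ?_
        rw [hPcard, hf, show a = 0 by omega, pow_zero, one_mul]
      by_contra hne
      haveI := (Subgroup.nontrivial_iff_ne_bot _).mpr hne
      obtain ⟨M, hM⟩ := IsCoatomic.exists_coatom (α := Subgroup (pCore p H))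
      exact hM.1 (top_le_iff.mp (hfr ▸ frattini_le_coatom hM))
    have hH1 : Nat.card H = 1 := by
      have hc := PSolv.centralizer_pCore_le (PSolv.isPSolvable_of_isSolvable hsol) hO
      rw [hb0] at hc
      haveI : Subsingleton H := ⟨fun x y => by
        have hx : x ∈ (⊥ : Subgroup H) := hc (Subgroup.mem_centralizer_iff.mpr fun z hz => by
          rw [Subgroup.coe_bot, Set.mem_singleton_iff] at hz; rw [hz, one_mul, mul_one])
        have hy : y ∈ (⊥ : Subgroup H) := hc (Subgroup.mem_centralizer_iff.mpr fun z hz => by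
          rw [Subgroup.coe_bot, Set.mem_singleton_iff] at hz; rw [hz, one_mul, mul_one])
        rw [Subgroup.mem_bot.mp hx, Subgroup.mem_bot.mp hy]⟩
      exact Nat.card_unique
    rw [hH1, Nat.factorization_one, Finsupp.zero_apply] at hb
    omega
  -- the linear group and its `p'`-core
  let L1 : Subgroup φ.range := pPrimeCore p φ.range
  let L1' : Subgroup (AddMonoid.End V)ˣ := L1.map φ.range.subtype
  haveI : L1.Normal := Subgroup.sSup_normal _ fun _ h => h.1
  have hφsol : Group.IsSolvable φ.range := solvable_range hsol φ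
  have hL1c : (Nat.card L1').Coprime p := by
    rw [Subgroup.card_map_of_injective (Subgroup.subtype_injective _)]
    exact Cores.pPrimeCore_coprime
  have hL1s : Group.IsSolvable L1' :=
    Group.isSolvable_of_isSolvable_injective
      (Subgroup.inclusion_injective (Subgroup.map_subtype_le L1 : L1' ≤ φ.range))
  -- the quotient by the Frattini subgroup
  have hΦker : Φ ≤ φ.ker := by rw [hker]; exact Subgroup.map_subtype_le _
  let φq : H ⧸ Φ →* φ.range :=
    QuotientGroup.lift Φ φ.rangeRestrict (by rw [MonoidHom.ker_rangeRestrict]; exact hΦker)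
  have hφq : Function.Surjective φq := fun y => by
    obtain ⟨h, hh⟩ := φ.rangeRestrict_surjective y
    exact ⟨(h : H ⧸ Φ), hh⟩
  let X1 : Subgroup (H ⧸ Φ) := L1.comap φq
  haveI : X1.Normal := (inferInstance : L1.Normal).comap _
  -- the module in `X1`
  have hΦle : frattini (pCore p H) ≤ Φ.comap (pCore p H).subtype := Subgroup.le_comap_map _ _
  let j : (pCore p H ⧸ frattini (pCore p H)) →* H ⧸ Φ :=
    QuotientGroup.map (frattini (pCore p H)) Φ (pCore p H).subtype hΦle
  have hjker : ∀ x, φq (j x) = 1 := fun x => by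
    obtain ⟨x, rfl⟩ := QuotientGroup.mk_surjective x
    exact Subtype.ext (MonoidHom.mem_ker.mp (hker.symm ▸ x.2 : (x : H) ∈ φ.ker))
  let jX : (pCore p H ⧸ frattini (pCore p H)) →* X1 :=
    j.codRestrict X1 fun x => show φq (j x) ∈ L1 by rw [hjker]; exact one_mem _
  let V1 : Subgroup X1 := jX.range
  let ψ : X1 →* L1' :=
    ((φ.range.subtype.comp φq).comp X1.subtype).codRestrict L1' fun x => ⟨φq x.1, x.2, rfl⟩
  have hψ : Function.Surjective ψ := by
    rintro ⟨_, l, hl, rfl⟩
    obtain ⟨x, hx⟩ := hφq l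
    exact ⟨⟨x, show φq x ∈ L1 by rw [hx]; exact hl⟩,
      Subtype.ext (congrArg (fun z : φ.range => (z : (AddMonoid.End V)ˣ)) hx)⟩
  have hψker : ψ.ker = V1 := by
    ext ⟨x, hx⟩
    rw [MonoidHom.mem_ker]
    constructor
    · intro h
      have h1 : φq x = 1 := Subtype.ext (congrArg Subtype.val h :)
      obtain ⟨g, rfl⟩ := QuotientGroup.mk_surjective x
      have hg : g ∈ pCore p H := hker ▸ MonoidHom.mem_ker.mpr (congrArg Subtype.val h1 :)
      exact ⟨((⟨g, hg⟩ : pCore p H) : pCore p H ⧸ frattini (pCore p H)), Subtype.ext rfl⟩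
    · rintro ⟨v, hv⟩
      have hx' : x = j v := (congrArg Subtype.val hv).symm
      refine Subtype.ext ?_
      show ((φq x : φ.range) : (AddMonoid.End V)ˣ) = 1
      rw [hx', hjker]
      rfl
  haveI hV1n : V1.Normal := hψker ▸ MonoidHom.normal_ker ψ
  have hjinj : Function.Injective jX := by
    rw [injective_iff_map_eq_one]
    intro x hx
    obtain ⟨y, rfl⟩ := QuotientGroup.mk_surjective x
    have h1 : ((y : H) : H ⧸ Φ) = 1 := congrArg Subtype.val hx
    obtain ⟨z, hz, hzy⟩ := (QuotientGroup.eq_one_iff _).mp h1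
    exact (QuotientGroup.eq_one_iff y).mpr ((Subtype.ext hzy : z = y) ▸ hz)
  have hV1c : Nat.card V1 = p ^ a := by
    rw [← Nat.card_congr (MonoidHom.ofInjective hjinj).toEquiv, ← ha]
    rfl
  have hV1i : V1.index = Nat.card L1' := by
    rw [← hψker, Subgroup.index_ker, MonoidHom.range_eq_top.mpr hψ, Subgroup.card_top]
  obtain ⟨K, hK⟩ := Subgroup.exists_right_complement'_of_coprime (N := V1) (by
    rw [hV1c, hV1i]; exact (hL1c.symm.pow_left a))
  let ψK : K →* L1' := ψ.comp K.subtype
  have hψK : Function.Bijective ψK := by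
    refine ⟨?_, fun l => ?_⟩
    · rw [injective_iff_map_eq_one]
      intro k hk
      have hkV : (k : X1) ∈ V1 := hψker ▸ MonoidHom.mem_ker.mpr hk
      exact Subtype.ext (Subgroup.disjoint_def.mp hK.disjoint hkV k.2)
    · obtain ⟨x, rfl⟩ := hψ l
      obtain ⟨⟨v, k⟩, rfl⟩ := hK.2 x
      refine ⟨k, ?_⟩
      show ψ (k : X1) = ψ ((v : X1) * (k : X1))
      rw [map_mul, MonoidHom.mem_ker.mp (hψker.symm ▸ v.2 : (v : X1) ∈ ψ.ker), one_mul]
  let s : L1' →* X1 := K.subtype.comp (MulEquiv.ofBijective ψK hψK).symm.toMonoidHom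
  have hs : ∀ l, ψ (s l) = l := fun l =>
    (MulEquiv.ofBijective ψK hψK).apply_symm_apply l
  let fn : Multiplicative V →* X1 :=
    jX.comp { toFun := fun v => v.toAdd.toMul, map_one' := rfl, map_mul' := fun _ _ => rfl }
  let F : SD L1' →* X1 := SemidirectProduct.lift fn s fun l => MonoidHom.ext fun v => by
    obtain ⟨g, hg⟩ := QuotientGroup.mk_surjective (s l : H ⧸ Φ)
    obtain ⟨x, hx⟩ := QuotientGroup.mk_surjective v.toAdd.toMul
    have hl : φ g = (l : (AddMonoid.End V)ˣ) := by
      rw [← hs l]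
      show φ g = ((φq (s l : H ⧸ Φ) : φ.range) : (AddMonoid.End V)ˣ)
      rw [← hg]
      rfl
    refine Subtype.ext ?_
    show j (Additive.toMul ((l : (AddMonoid.End V)ˣ) • v.toAdd)) =
      (s l : H ⧸ Φ) * j v.toAdd.toMul * (s l : H ⧸ Φ)⁻¹
    rw [← hl, ← hg]
    show j (frattiniAct (pCore p H) g v.toAdd.toMul) = _
    rw [← hx, frattiniAct_mk]
    show (((MulAut.conjNormal g x : pCore p H) : H) : H ⧸ Φ) =
      (g : H ⧸ Φ) * ((x : H) : H ⧸ Φ) * (g : H ⧸ Φ)⁻¹
    rw [MulAut.conjNormal_apply, QuotientGroup.mk_mul, QuotientGroup.mk_mul, QuotientGroup.mk_inv]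
  have hF : Function.Surjective F := by
    intro x
    obtain ⟨⟨⟨v, ⟨w, rfl⟩⟩, k⟩, rfl⟩ := hK.2 x
    refine ⟨⟨Multiplicative.ofAdd (Additive.ofMul w), ψK k⟩, ?_⟩
    show jX w * s (ψK k) = jX w * (k : X1)
    congr 1
    show ((MulEquiv.ofBijective ψK hψK).symm (ψK k) : X1) = (k : X1)
    rw [show ψK k = MulEquiv.ofBijective ψK hψK k from rfl, MulEquiv.symm_apply_apply]
  have hX1 : kc X1 ≤ 3 ^ (a - 1) * p ^ a :=
    (kc_le_of_surjective F hF).trans (kgv a V hV ha ha1 L1' hL1s hL1c)
  -- the top section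
  haveI := hφsol
  let Q := φ.range ⧸ L1
  have hQO : pPrimeCore p Q = ⊥ := Cores.pPrimeCore_quotient_pPrimeCore_eq_bot
  obtain ⟨b', hb'⟩ : ∃ b', (Nat.card Q).factorization p = b' := ⟨_, rfl⟩
  have hcards : Nat.card H = p ^ f * p ^ a * (Nat.card L1' * Nat.card Q) := by
    rw [← Subgroup.card_mul_index φ.ker, Subgroup.index_ker,
      Subgroup.card_eq_card_quotient_mul_card_subgroup L1,
      Subgroup.card_map_of_injective (Subgroup.subtype_injective _), hker, hPcard]
    ring
  have hbsum : b = f + a + b' := by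
    rw [← hb, hcards, Nat.factorization_mul (by simp [hp.out.ne_zero])
      (Nat.mul_ne_zero Nat.card_pos.ne' Nat.card_pos.ne'),
      Nat.factorization_mul Nat.card_pos.ne' Nat.card_pos.ne',
      ← pow_add, Finsupp.add_apply, Finsupp.add_apply, hp.out.factorization_pow,
      Finsupp.single_eq_same, hb',
      Nat.factorization_eq_zero_of_not_dvd (hp.out.coprime_iff_not_dvd.mp hL1c.symm), zero_add]
  have hQ : kc Q * 3 ≤ 3 ^ b' * p ^ b' * 3 := by
    refine Nat.mul_le_mul_right 3 ?_
    rcases Nat.eq_zero_or_pos b' with h | h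
    · have hsub : pPrimeCore p Q = ⊤ :=
        top_le_iff.mp (Cores.le_pPrimeCore inferInstance (by
          rw [Subgroup.card_top, Nat.coprime_comm, hp.out.coprime_iff_not_dvd]
          intro hd
          exact (hp.out.factorization_pos_of_dvd Nat.card_pos.ne' hd).ne' (hb'.trans h)))
      rw [hQO] at hsub
      haveI : Subsingleton Q := subsingleton_iff.mpr fun x y => by
        have hx : x ∈ (⊥ : Subgroup Q) := hsub ▸ Subgroup.mem_top x
        have hy : y ∈ (⊥ : Subgroup Q) := hsub ▸ Subgroup.mem_top y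
        rw [Subgroup.mem_bot.mp hx, Subgroup.mem_bot.mp hy]
      rw [h, pow_zero, pow_zero, mul_one]
      exact (kc_le_card Q).trans (Finite.card_le_one_iff_subsingleton.mpr inferInstance)
    · refine (ih (Nat.card Q) ?_ Q rfl inferInstance hQO b' hb' h).trans
        (Nat.mul_le_mul_right _ (Nat.pow_le_pow_right (by norm_num) (by omega)))
      rw [← hn, hcards]
      calc Nat.card Q < 2 * Nat.card Q := by have := Nat.card_pos (α := Q); omega
        _ ≤ p ^ f * p ^ a * (Nat.card L1' * Nat.card Q) := by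
          rw [← mul_assoc]
          refine Nat.mul_le_mul_right _ ?_
          calc 2 ≤ 1 * p ^ a * 1 := by
                rw [one_mul, mul_one]; exact hp.out.two_le.trans (Nat.le_self_pow (by omega) p)
            _ ≤ _ := Nat.mul_le_mul (Nat.mul_le_mul_right _ (Nat.one_le_pow _ _ hp.out.pos))
                Nat.card_pos
  let π : H ⧸ Φ →* Q := (QuotientGroup.mk' L1).comp φq
  have hπ : π.ker = X1 := by
    ext x
    exact QuotientGroup.eq_one_iff _
  have hπs : Function.Surjective π := (QuotientGroup.mk'_surjective L1).comp hφq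
  have hQ' : kc ((H ⧸ Φ) ⧸ X1) = kc Q :=
    kc_congr ((QuotientGroup.quotientMulEquivOfEq hπ.symm).trans
      (QuotientGroup.quotientKerEquivOfSurjective π hπs))
  calc kc H ≤ kc Φ * kc (H ⧸ Φ) := kc_le_mul Φ
    _ ≤ p ^ f * (kc X1 * kc ((H ⧸ Φ) ⧸ X1)) :=
        Nat.mul_le_mul ((kc_le_card _).trans_eq hΦ) (kc_le_mul X1)
    _ ≤ p ^ f * (3 ^ (a - 1) * p ^ a * (3 ^ b' * p ^ b')) := by
        rw [hQ']
        exact Nat.mul_le_mul_left _ (Nat.mul_le_mul hX1 (Nat.le_of_mul_le_mul_right hQ (by norm_num)))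
    _ = 3 ^ (a - 1 + b') * p ^ (f + a + b') := by rw [pow_add, pow_add, pow_add]; ring
    _ ≤ 3 ^ (b - 1) * p ^ b := by
        rw [hbsum]
        exact Nat.mul_le_mul_right _ (Nat.pow_le_pow_right (by norm_num) (by omega))

end Cfsg.Agent.SolvBound
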