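import Cfsg.Agent.SolvBound.Complex

/-!
# Semidirect products of a module by a linear group and their class numbers
-/

set_option autoImplicit false
set_option linter.style.haveILetI false
set_option linter.unusedSectionVars false

namespace Cfsg.Agent.SolvBound

variable {V : Type} [AddCommGroup V]

/-- A linear group acting on the multiplicative version of the module. -/
def actV (L : Subgroup (AddMonoid.End V)ˣ) : L →* MulAut (Multiplicative V) where
  toFun l :=
    { toFun := fun v => Multiplicative.ofAdd (l • v.toAdd)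
      invFun := fun v => Multiplicative.ofAdd (l⁻¹ • v.toAdd)
      left_inv := fun v => by simp
      right_inv := fun v => by simp
      map_mul' := fun v w => congrArg Multiplicative.ofAdd (smul_add l v.toAdd w.toAdd) }
  map_one' := MulEquiv.ext fun v => congrArg Multiplicative.ofAdd (one_smul L v.toAdd)
  map_mul' l m := MulEquiv.ext fun v => congrArg Multiplicative.ofAdd (mul_smul l m v.toAdd)

/-- The semidirect product. -/
abbrev SD (L : Subgroup (AddMonoid.End V)ˣ) := Multiplicative V ⋊[actV L] L

/-- The module inside. -/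
def Vpart (L : Subgroup (AddMonoid.End V)ˣ) : Subgroup (SD L) :=
  (SemidirectProduct.inl : Multiplicative V →* SD L).range

theorem mem_Vpart {L : Subgroup (AddMonoid.End V)ˣ} {x : SD L} : x ∈ Vpart L ↔ x.right = 1 := by
  rw [Vpart, SemidirectProduct.range_inl_eq_ker_rightHom, MonoidHom.mem_ker]
  rfl

instance Vpart_normal (L : Subgroup (AddMonoid.End V)ˣ) : (Vpart L).Normal := by
  rw [Vpart, SemidirectProduct.range_inl_eq_ker_rightHom]
  infer_instance

variable [Finite V]

instance finiteSD (L : Subgroup (AddMonoid.End V)ˣ) : Finite (SD L) :=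
  Finite.of_equiv _ SemidirectProduct.equivProd.symm

theorem card_Vpart (L : Subgroup (AddMonoid.End V)ˣ) : Nat.card (Vpart L) = Nat.card V :=
  (Nat.card_congr (MonoidHom.ofInjective SemidirectProduct.inl_injective).toEquiv).symm

/-- A subgroup containing the module is again a semidirect product. -/
theorem exists_sd_equiv {L : Subgroup (AddMonoid.End V)ˣ} (Z : Subgroup (SD L))
    (hZ : Vpart L ≤ Z) :
    ∃ L' : Subgroup (AddMonoid.End V)ˣ, L' ≤ L ∧ Nonempty (SD L' ≃* Z) ∧
      L' = (Z.map (SemidirectProduct.rightHom : SD L →* L)).map L.subtype := by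
  let L' : Subgroup (AddMonoid.End V)ˣ :=
    (Z.map (SemidirectProduct.rightHom : SD L →* L)).map L.subtype
  have hle : L' ≤ L := Subgroup.map_subtype_le _
  let f : SD L' →* SD L :=
    SemidirectProduct.map (MonoidHom.id _) (Subgroup.inclusion hle) fun _ => rfl
  have hf : Function.Injective f := fun x y h =>
    SemidirectProduct.ext (congrArg SemidirectProduct.left h :)
      (Subgroup.inclusion_injective hle (congrArg SemidirectProduct.right h :))
  have hrange : f.range = Z := by
    ext x
    constructor
    · rintro ⟨y, rfl⟩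
      obtain ⟨_, ⟨z, hz, rfl⟩, hy⟩ := y.right.2
      have e : (f y).right = z.right := Subtype.ext hy.symm
      rw [← SemidirectProduct.inl_left_mul_inr_right (f y), e,
        show SemidirectProduct.inr z.right = (SemidirectProduct.inl z.left)⁻¹ * z by
          rw [eq_inv_mul_iff_mul_eq, SemidirectProduct.inl_left_mul_inr_right]]
      exact Z.mul_mem (hZ ⟨_, rfl⟩) (Z.mul_mem (Z.inv_mem (hZ ⟨_, rfl⟩)) hz)
    · intro hx
      exact ⟨⟨x.left, ⟨x.right, ⟨x.right, ⟨x, hx, rfl⟩, rfl⟩⟩⟩,
        SemidirectProduct.ext rfl (Subtype.ext rfl)⟩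
  exact ⟨L', hle, ⟨(MonoidHom.ofInjective hf).trans (MulEquiv.subgroupCongr hrange)⟩, rfl⟩

/-- A jointly injective family of homomorphisms whose images contain given subgroups coming from
elements in the kernels of the other members. -/
theorem kc_le_prod_of_sections {ι : Type*} [DecidableEq ι] {Y : ι → Type*} [∀ i, Group (Y i)]
    (A : ∀ i, Subgroup (Y i)) (b : ι → ℕ)
    (hY : ∀ i (Z : Subgroup (Y i)), A i ≤ Z → kc Z ≤ b i) (s : Finset ι) :
    ∀ {X : Type*} [Group X] [Finite X] (g : ∀ i, X →* Y i),
      (∀ x, (∀ i ∈ s, g i x = 1) → x = 1) →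
      (∀ i ∈ s, ∀ a ∈ A i, ∃ x, g i x = a ∧ ∀ j ∈ s, j ≠ i → g j x = 1) →
      kc X ≤ ∏ i ∈ s, b i := by
  induction s using Finset.induction_on with
  | empty =>
    intro X _ _ g hinj _
    haveI : Subsingleton X := ⟨fun x y => by rw [hinj x (by simp), hinj y (by simp)]⟩
    exact (kc_le_card X).trans (by simpa using (Finite.card_le_one_iff_subsingleton.mpr ‹_›))
  | @insert i s hi ih =>
    intro X _ _ g hinj hsec
    rw [Finset.prod_insert hi, mul_comm]
    refine (kc_le_mul (g i).ker).trans (Nat.mul_le_mul ?_ ?_)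
    · refine ih (fun j => (g j).comp (g i).ker.subtype) (fun x hx => ?_) (fun j hj a ha => ?_)
      · refine Subtype.ext (hinj x fun j hj => ?_)
        rcases Finset.mem_insert.mp hj with rfl | hj
        · exact x.2
        · exact hx j hj
      · obtain ⟨x, hx, hx'⟩ := hsec j (Finset.mem_insert_of_mem hj) a ha
        have hne : i ≠ j := fun h => hi (h ▸ hj)
        exact ⟨⟨x, MonoidHom.mem_ker.mpr (hx' i (Finset.mem_insert_self i s) hne)⟩, hx,
          fun l hl hlj => hx' l (Finset.mem_insert_of_mem hl) hlj⟩
    · refine (kc_congr (QuotientGroup.quotientKerEquivRange (g i))).trans_le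
        (hY i (g i).range fun a ha => ?_)
      obtain ⟨x, hx, -⟩ := hsec i (Finset.mem_insert_self i s) a ha
      exact ⟨x, hx⟩

/-- Decompositions into invariant direct summands. -/
theorem kc_sd_decomp {ι : Type} [Fintype ι] (L : Subgroup (AddMonoid.End V)ˣ)
    (p : ι → AddMonoid.End V) (htot : ∀ v, ∑ i, p i v = v)
    (horth : ∀ i j, i ≠ j → ∀ v, p i (p j v) = 0) (hidem : ∀ i v, p i (p i v) = p i v)
    (hcomm : ∀ i (g : L) v, p i (g • v) = g • p i v) (b : ι → ℕ)
    (hb : ∀ i, ∀ K : Subgroup (AddMonoid.End (AddMonoidHom.range (p i)))ˣ,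
      (Group.IsSolvable L → Group.IsSolvable K) → Nat.card K ∣ Nat.card L →
      kc (SD K) ≤ b i) :
    kc (SD L) ≤ ∏ i, b i := by
  classical
  let W : ι → AddSubgroup V := fun i => AddMonoidHom.range (p i)
  have hfix : ∀ i, ∀ v ∈ W i, p i v = v := by
    rintro i _ ⟨w, rfl⟩; exact hidem i w
  have hinv : ∀ i (g : L), ∀ v ∈ W i, L.subtype g • v ∈ W i := by
    rintro i g _ ⟨w, rfl⟩
    exact ⟨g • w, hcomm i g w⟩
  let f : ∀ i, L →* (AddMonoid.End (W i))ˣ := fun i => resHom L.subtype (W i) (hinv i)
  let pr : ∀ i, Multiplicative V →* Multiplicative (W i) := fun i =>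
    AddMonoidHom.toMultiplicative
      ({ toFun := fun v => ⟨p i v, v, rfl⟩
         map_zero' := Subtype.ext (map_zero (p i))
         map_add' := fun a c => Subtype.ext (map_add (p i) a c) } : V →+ W i)
  let g : ∀ i, SD L →* SD (f i).range := fun i =>
    SemidirectProduct.map (pr i) (f i).rangeRestrict fun l => MonoidHom.ext fun v =>
      congrArg Multiplicative.ofAdd (Subtype.ext (hcomm i l v.toAdd) :
        (⟨p i (l • v.toAdd), _, rfl⟩ : W i) = _)
  refine kc_le_prod_of_sections (fun i => Vpart (f i).range) b (fun i Z hZ => ?_) Finset.univ g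
    (fun x hx => ?_) (fun i _ a ha => ?_)
  · obtain ⟨K, hK, ⟨e⟩, -⟩ := exists_sd_equiv Z hZ
    rw [← kc_congr e]
    refine hb i K (fun hs => ?_) ((Subgroup.card_dvd_of_le hK).trans
      (Subgroup.card_range_dvd (f i)))
    haveI := hs
    haveI := solvable_range hs (f i)
    exact Group.isSolvable_of_isSolvable_injective (Subgroup.inclusion_injective hK)
  · refine SemidirectProduct.ext ?_ ?_
    · have h1 : ∀ i, p i x.left.toAdd = 0 := fun i =>
        congrArg (fun z : Multiplicative (W i) => ((z.toAdd : W i) : V))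
          (congrArg SemidirectProduct.left (hx i (Finset.mem_univ i)))
      show x.left = 1
      rw [← toAdd_eq_zero, ← htot x.left.toAdd]
      exact Finset.sum_eq_zero fun i _ => h1 i
    · refine Subtype.ext (Units.ext (DFunLike.ext _ _ fun v => ?_))
      show x.right • v = v
      refine (congrArg (x.right • ·) (htot v).symm).trans ?_
      refine Finset.smul_sum.trans (Eq.trans ?_ (htot v))
      refine Finset.sum_congr rfl fun i _ => ?_
      have h2 : f i x.right = 1 :=
        congrArg Subtype.val (congrArg SemidirectProduct.right (hx i (Finset.mem_univ i)))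
      have := congrArg (fun u : (AddMonoid.End (W i))ˣ => ((u • ⟨p i v, v, rfl⟩ : W i) : V)) h2
      simp only [one_smul] at this
      exact this
  · obtain ⟨w, rfl⟩ := ha
    refine ⟨SemidirectProduct.inl (Multiplicative.ofAdd ((w.toAdd : W i) : V)), ?_,
      fun j _ hj => ?_⟩
    · refine SemidirectProduct.ext ?_ (map_one _)
      exact congrArg Multiplicative.ofAdd (Subtype.ext (hfix i _ (w.toAdd).2) : (⟨_, _⟩ : W i) = w.toAdd)
    · refine SemidirectProduct.ext ?_ (map_one _)
      refine congrArg Multiplicative.ofAdd (Subtype.ext ?_ : (⟨_, _⟩ : W j) = 0)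
      obtain ⟨u, hu⟩ := (w.toAdd).2
      show p j ((w.toAdd : W i) : V) = 0
      rw [← hu]
      exact horth j i hj u

end Cfsg.Agent.SolvBound
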